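import Cfsg.Agent.G23.A

/-! The centralizer of the involution, numbered by `0, …, 575`. -/

set_option autoImplicit false
set_option maxRecDepth 100000
set_option synthInstance.maxSize 100000

namespace Cfsg.G23

open Subgroup

def pk (e i j : ℕ) : ℕ :=
  Nat.add (Nat.add (Nat.mul (nat_lit 288) e) (Nat.mul (nat_lit 12) (Nat.mod (Nat.add i
    (Nat.mul (nat_lit 12) (Nat.div j (nat_lit 12)))) (nat_lit 24)))) (Nat.mod j (nat_lit 12))

theorem pk_eq (e i j : ℕ) : pk e i j = 288 * e + 12 * ((i + 12 * (j / 12)) % 24) + j % 12 := rfl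

def dE (p : ℕ) : ℕ := Nat.mod (Nat.div p (nat_lit 288)) (nat_lit 2)

theorem dE_eq (p : ℕ) : dE p = p / 288 % 2 := rfl

/-- The multiplication of the numbers. -/
def mt (e1 e2 dl p q : ℕ) : ℕ :=
  pk (Nat.mod (Nat.add (dE p) (dE q)) (nat_lit 2))
    (Nat.add (T (tw (Nat.mul e1 (dE q)) (Nat.div p (nat_lit 12))) (Nat.div q (nat_lit 12)))
      (Nat.mul (nat_lit 12) (Nat.mul (Nat.mul dl (dE p)) (dE q))))
    (T (tw (Nat.mul e2 (dE q)) (Nat.mod p (nat_lit 12))) (Nat.mod q (nat_lit 12)))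

theorem mt_eq (e1 e2 dl p q : ℕ) : mt e1 e2 dl p q = pk ((dE p + dE q) % 2)
    (T (tw (e1 * dE q) (p / 12)) (q / 12) + 12 * (dl * dE p * dE q))
    (T (tw (e2 * dE q) (p % 12)) (q % 12)) := rfl

theorem mt_lt (e1 e2 dl p q : ℕ) : mt e1 e2 dl p q < 576 := by
  rw [mt_eq, pk_eq]; omega

theorem dE_lt (p : ℕ) : dE p < 2 := l2 _

theorem dE_mt (e1 e2 dl p q : ℕ) : dE (mt e1 e2 dl p q) = (dE p + dE q) % 2 := by
  rw [mt_eq, pk_eq, dE_eq]; omega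

variable {G : Type*} [Group G]

structure Hy (e1 e2 dl : ℕ) (h : G) (f1 f2 : ℕ → G) : Prop where
  s1 : S24 f1
  s2 : S24 f2
  z2 : f2 12 = f1 12
  com : ∀ i j, f1 i * f2 j = f2 j * f1 i
  int : ∀ i j, f1 i = f2 j → f1 i = 1 ∨ f1 i = f1 12
  a1 : ∀ i, f1 i * h = h * f1 (tw e1 i)
  a2 : ∀ i, f2 i * h = h * f2 (tw e2 i)
  hh : h * h = f1 (12 * dl)
  nh : ∀ i j, h ≠ f1 i * f2 j
  cov : ∀ g, g * f1 12 = f1 12 * g → ∃ i j, g = f1 i * f2 j ∨ g = h * (f1 i * f2 j)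

def FF (h : G) (f1 f2 : ℕ → G) (p : ℕ) : G := h ^ dE p * (f1 (p / 12) * f2 (p % 12))

namespace Hy

variable {e1 e2 dl : ℕ} {h : G} {f1 f2 : ℕ → G} (H : Hy e1 e2 dl h f1 f2)
include H

theorem pk' {e j : ℕ} (he : e < 2) (hj : j < 24) (i : ℕ) :
    FF h f1 f2 (pk e i j) = h ^ e * (f1 i * f2 j) := by
  have a : dE (pk e i j) = e := by rw [pk_eq, dE_eq]; omega
  have c : pk e i j % 12 = j % 12 := by rw [pk_eq]; omega
  rw [FF, a, c]
  congr 1
  by_cases hj' : j < 12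
  · rw [Nat.mod_eq_of_lt hj', H.s1.congr (j := i) (by rw [pk_eq]; omega)]
  · rw [H.s1.congr (j := i + 12) (by rw [pk_eq]; omega), H.s1.neg, mul_assoc, ← H.z2, ← H.s2.cen,
      ← H.s2.neg, H.s2.congr (j := j) (by omega)]

theorem mul (p q : ℕ) : FF h f1 f2 p * FF h f1 f2 q = FF h f1 f2 (mt e1 e2 dl p q) := by
  rw [mt_eq, H.pk' (l2 _) (T_lt _ _), FF, FF, ← H.s2.mul]
  have hp : dE p < 2 := l2 _
  have hq : dE q < 2 := l2 _
  generalize dE p = e at hp ⊢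
  generalize dE q = f at hq ⊢
  generalize p / 12 = i
  generalize q / 12 = i'
  generalize p % 12 = j
  generalize q % 12 = j'
  have c : ∀ x y : G, ∀ a b, x * (f1 a * f2 b) * y = x * (f2 b * f1 a) * y := fun x y a b => by
    rw [H.com]
  have k0 : f1 i * f2 j * (f1 i' * f2 j') = f1 (T (tw 0 i) i') * (f2 (tw 0 j) * f2 j') := by
    rw [← H.s1.mul, tw_zero, tw_zero, H.s1.md, H.s2.md, mul_assoc, mul_assoc, ← mul_assoc (f2 j),
      ← H.com, mul_assoc]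
  have k1 : f1 i * f2 j * (h * (f1 i' * f2 j')) =
      h * (f1 (T (tw e1 i) i') * (f2 (tw e2 j) * f2 j')) := by
    rw [← H.s1.mul, mul_assoc, ← mul_assoc (f2 j), H.a2, mul_assoc h, ← mul_assoc (f1 i), H.a1,
      ← mul_assoc (f2 _), ← H.com]
    simp only [mul_assoc]
  interval_cases e <;> interval_cases f
  · simpa using k0
  · simpa using k1
  · simp only [pow_one, pow_zero, one_mul, mul_zero, add_zero, mul_assoc h, k0]
    norm_num
  · simp only [pow_one, mul_one, mul_assoc h, k1]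
    rw [← mul_assoc h, H.hh, show (1 + 1) % 2 = 0 from rfl, pow_zero, one_mul, ← mul_assoc,
      ← mul_assoc, ← mul_assoc]
    congr 2
    rcases Nat.mod_two_eq_zero_or_one dl with e | e
    · rw [H.s1.congr (i := 12 * dl) (j := 0) (by omega), H.s1.one, one_mul]
      exact H.s1.congr (by omega)
    · rw [H.s1.congr (i := 12 * dl) (j := 12) (by omega), ← H.s1.cen, ← H.s1.neg]
      exact H.s1.congr (by omega)

theorem eq0 {i j i' j' : ℕ} (hj : j < 12) (hj' : j' < 12) (e : f1 i * f2 j = f1 i' * f2 j') :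
    i % 24 = i' % 24 ∧ j = j' := by
  obtain ⟨a, -, ha⟩ := H.s1.inv i'
  obtain ⟨b, -, hb⟩ := H.s2.inv j
  have e1 : f1 (T a i) = f2 (T j' b) := by
    rw [← H.s1.mul, ← H.s2.mul, ← ha, ← hb, inv_mul_eq_iff_eq_mul, ← mul_assoc, ← e]; group
  rcases H.int _ _ e1 with e2 | e2
  · rw [e2, ← H.s2.mul, ← hb, eq_mul_inv_iff_mul_eq, one_mul] at e1
    rw [e1, mul_left_inj] at e
    have := H.s2.inj _ _ e1
    exact ⟨H.s1.inj _ _ e, by omega⟩
  · rw [e2, ← H.s2.mul, ← hb, eq_mul_inv_iff_mul_eq, ← H.z2, ← H.s2.cen, ← H.s2.neg] at e1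
    have := H.s2.inj _ _ e1
    omega

theorem inj {p q : ℕ} (e : FF h f1 f2 p = FF h f1 f2 q) : p % 576 = q % 576 := by
  have l : ∀ p : ℕ, p % 12 < 12 := fun p => Nat.mod_lt _ (by norm_num)
  have n : ∀ i j i' j', f1 i * f2 j ≠ h * (f1 i' * f2 j') := fun i j i' j' e => by
    obtain ⟨a, -, ha⟩ := H.s1.inv i'
    obtain ⟨b, -, hb⟩ := H.s2.inv j'
    refine H.nh (T i a) (T j b) ?_
    rw [← H.s1.mul, ← H.s2.mul, mul_assoc, ← mul_assoc (f1 a), H.com a, mul_assoc, H.com a,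
      ← mul_assoc, e, ← ha, ← hb]
    group
  have hp : dE p < 2 := l2 _
  have hq : dE q < 2 := l2 _
  have a := dE_eq p
  have b := dE_eq q
  unfold FF at e
  generalize dE p = x at *
  generalize dE q = y at *
  interval_cases x <;> interval_cases y
  · have := H.eq0 (l p) (l q) (mul_left_cancel e); omega
  · exact absurd (by simpa using e) (n _ _ _ _)
  · exact absurd (by simpa using e.symm) (n _ _ _ _)
  · have := H.eq0 (l p) (l q) (mul_left_cancel e); omega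

theorem f1_eq (i : ℕ) : f1 i = FF h f1 f2 (pk 0 i 0) := by
  rw [H.pk' (by norm_num) (by norm_num), H.s2.one]; simp

theorem f2_eq {j : ℕ} (hj : j < 24) : f2 j = FF h f1 f2 (pk 0 0 j) := by
  rw [H.pk' (by norm_num) hj, H.s1.one]; simp

theorem h_eq : h = FF h f1 f2 288 := by
  have := H.pk' (e := 1) (j := 0) (by norm_num) (by norm_num) 0
  rw [H.s1.one, H.s2.one] at this
  rw [show (288 : ℕ) = pk 1 0 0 from rfl, this]; simp

theorem cov' {g : G} (hg : g * f1 12 = f1 12 * g) : ∃ p < 576, g = FF h f1 f2 p := by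
  obtain ⟨i, j, e | e⟩ := H.cov g hg
  · exact ⟨pk 0 i (j % 24), by rw [pk_eq]; omega, by
      rw [H.pk' (by norm_num) (l24 j), H.s2.md, e]; simp⟩
  · exact ⟨pk 1 i (j % 24), by rw [pk_eq]; omega, by
      rw [H.pk' (by norm_num) (l24 j), H.s2.md, e]; simp⟩

theorem sw (hd : dl = 0) : Hy e2 e1 dl h f2 f1 where
  s1 := H.s2
  s2 := H.s1
  z2 := H.z2.symm
  com i j := (H.com j i).symm
  int i j e := by rw [H.z2, e]; exact H.int _ _ e.symm
  a1 := H.a2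
  a2 := H.a1
  hh := by rw [H.hh, hd, H.s1.one, H.s2.one]
  nh i j := by rw [← H.com]; exact H.nh j i
  cov g hg := by
    obtain ⟨i, j, e⟩ := H.cov g (H.z2 ▸ hg)
    exact ⟨j, i, by rwa [← H.com]⟩

theorem dg (hd : dl = 0) : Hy e1 e2 dl h (fun i => f1 (tw e1 i)) f2 where
  s1 := H.s1.twist e1
  s2 := H.s2
  z2 := by rw [tw_12, H.z2]
  com i j := H.com _ _
  int i j e := by rw [tw_12]; exact H.int _ _ e
  a1 i := H.a1 _
  a2 := H.a2
  hh := by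
    rw [H.hh, hd, H.s1.one]
    exact (H.s1.twist e1).one.symm
  nh i j := H.nh _ _
  cov g hg := by
    rw [tw_12] at hg
    obtain ⟨i, j, e⟩ := H.cov g hg
    exact ⟨tw e1 i, j, by rwa [tw_tw, H.s1.md]⟩

theorem hz : Hy e1 e2 dl (h * f1 12) f1 f2 where
  s1 := H.s1
  s2 := H.s2
  z2 := H.z2
  com := H.com
  int := H.int
  a1 i := by rw [← mul_assoc, H.a1, mul_assoc, mul_assoc, H.s1.cen]
  a2 i := by rw [← mul_assoc, H.a2, mul_assoc, mul_assoc, H.com]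
  hh := by
    rw [mul_assoc, ← mul_assoc (f1 12), H.a1, tw_12, mul_assoc, H.s1.zz, mul_one, H.hh]
  nh i j e := H.nh (i + 12) j (by
    rw [H.s1.neg, H.s1.cen, mul_assoc, ← e, ← mul_assoc, H.a1, tw_12, mul_assoc, H.s1.zz, mul_one])
  cov g hg := by
    obtain ⟨i, j, e | e⟩ := H.cov g hg
    · exact ⟨i, j, Or.inl e⟩
    · refine ⟨i + 12, j, Or.inr ?_⟩
      rw [H.s1.neg i, H.s1.cen i, mul_assoc, ← mul_assoc (f1 12), ← mul_assoc (f1 12), H.s1.zz,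
        one_mul, e]

end Hy

/-- A numbering of the centralizer of `F 144`. -/
def Ty (e1 e2 dl : ℕ) (F : ℕ → G) : Prop := ∃ h f1 f2, Hy e1 e2 dl h f1 f2 ∧ F = FF h f1 f2

namespace Ty

variable {e1 e2 dl : ℕ} {F : ℕ → G} (H : Ty e1 e2 dl F)
include H

theorem mul (p q : ℕ) : F p * F q = F (mt e1 e2 dl p q) := by
  obtain ⟨h, f1, f2, H, rfl⟩ := H; exact H.mul p q

theorem inj {p q : ℕ} : F p = F q ↔ p % 576 = q % 576 := by
  obtain ⟨h, f1, f2, H, rfl⟩ := H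
  refine ⟨H.inj, fun e => ?_⟩
  rw [FF, FF, show dE p = dE q by rw [dE_eq, dE_eq]; omega, show p % 12 = q % 12 by omega,
    H.s1.congr (i := p / 12) (j := q / 12) (by omega)]

theorem inj' {p q : ℕ} (hp : p < 576) (hq : q < 576) (e : F p = F q) : p = q := by
  have := H.inj.1 e; omega

theorem mm {p q p' q' : ℕ} : F p * F q = F p' * F q' ↔ mt e1 e2 dl p q = mt e1 e2 dl p' q' := by
  rw [H.mul, H.mul]
  exact ⟨H.inj' (mt_lt _ _ _ _ _) (mt_lt _ _ _ _ _), fun e => by rw [e]⟩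

theorem one : F 0 = 1 := by
  obtain ⟨h, f1, f2, H, rfl⟩ := H
  rw [← H.s1.one, H.f1_eq 0]; rfl

theorem m1 {p q : ℕ} : F p * F q = 1 ↔ mt e1 e2 dl p q = 0 := by
  rw [H.mul, ← H.one]
  exact ⟨H.inj' (mt_lt _ _ _ _ _) (by norm_num), fun e => by rw [e]⟩

theorem cov {g : G} (hg : g * F 144 = F 144 * g) : ∃ p < 576, g = F p := by
  obtain ⟨h, f1, f2, H, rfl⟩ := H
  have : f1 12 = FF h f1 f2 144 := H.f1_eq 12
  exact H.cov' (this ▸ hg)

theorem cz (p : ℕ) : F p * F 144 = F 144 * F p := by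
  obtain ⟨h, f1, f2, H, rfl⟩ := H
  have : f1 12 = FF h f1 f2 144 := H.f1_eq 12
  rw [← this, FF]
  refine (Commute.mul_left (Commute.pow_left ?_ _) (Commute.mul_left (H.s1.cen _)
    (H.com _ _).symm)).eq
  have := H.a1 12
  rw [tw_12] at this
  exact this.symm

theorem zz : F 144 * F 144 = 1 := by
  obtain ⟨h, f1, f2, H, rfl⟩ := H
  have : f1 12 = FF h f1 f2 144 := H.f1_eq 12
  rw [← this, H.s1.zz]

theorem ne1 {p : ℕ} (h : p % 576 ≠ 0) : F p ≠ 1 := fun e => h (H.inj.1 (e.trans H.one.symm))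

theorem mem {K : Subgroup G} (a : F 12 ∈ K) (b : F 36 ∈ K) (c : F 1 ∈ K) (d : F 3 ∈ K)
    (e : F 288 ∈ K) (p : ℕ) : F p ∈ K := by
  obtain ⟨h, f1, f2, H, rfl⟩ := H
  refine mul_mem (pow_mem (H.h_eq ▸ e) _) (mul_mem ?_ ?_)
  · exact H.s1.ind (P := (· ∈ K)) (one_mem _) (fun x hx => mul_mem hx ((H.f1_eq 1).symm ▸ a))
      (fun x hx => mul_mem hx ((H.f1_eq 3).symm ▸ b)) _
  · exact H.s2.ind (P := (· ∈ K)) (one_mem _)
      (fun x hx => mul_mem hx ((H.f2_eq (j := 1) (by norm_num)).symm ▸ c))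
      (fun x hx => mul_mem hx ((H.f2_eq (j := 3) (by norm_num)).symm ▸ d)) _

theorem card : Nat.card (centralizer ({F 144} : Set G)) = 576 := by
  rw [← Nat.card_fin 576]
  refine (Nat.card_eq_of_bijective (fun p : Fin 576 => (⟨F p, mem_centralizer_singleton_iff.2
    (H.cz p)⟩ : centralizer ({F 144} : Set G))) ⟨fun p q e => Fin.ext (H.inj' p.2 q.2
      (congrArg Subtype.val e)), fun g => ?_⟩).symm
  obtain ⟨p, hp, e⟩ := H.cov (mem_centralizer_singleton_iff.1 g.2)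
  exact ⟨⟨p, hp⟩, Subtype.ext e.symm⟩

end Ty

/-- The standard multiplication. -/
def m (p q : ℕ) : ℕ := mt (nat_lit 1) (nat_lit 1) (nat_lit 0) p q

theorem m_lt (p q : ℕ) : m p q < 576 := mt_lt _ _ _ _ _

def St (F : ℕ → G) : Prop := Ty 1 1 0 F

def sSw (p : ℕ) : ℕ := pk (dE p) (p % 12) (p / 12 % 24)
def sDg (p : ℕ) : ℕ := pk (dE p) (tw 1 (p / 12)) (p % 12)
def sHz (p : ℕ) : ℕ := pk (dE p) (p / 12 + 12 * dE p) (p % 12)
def sg (s p : ℕ) : ℕ := if s = 0 then p else if s = 1 then sSw p else if s = 2 then sDg p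
  else sDg (sSw p)

namespace St

variable {F : ℕ → G} (H : St F)
include H

theorem mul (p q : ℕ) : F p * F q = F (m p q) := Ty.mul H p q
theorem mm {p q p' q' : ℕ} : F p * F q = F p' * F q' ↔ m p q = m p' q' := Ty.mm H
theorem m1 {p q : ℕ} : F p * F q = 1 ↔ m p q = 0 := Ty.m1 H

theorem sw : St fun p => F (sSw p) := by
  obtain ⟨h, f1, f2, H, rfl⟩ := H
  refine ⟨h, f2, f1, H.sw rfl, funext fun p => ?_⟩
  rw [sSw, H.pk' (dE_lt _) (l24 _), H.s2.md, H.com, FF]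

theorem dg : St fun p => F (sDg p) := by
  obtain ⟨h, f1, f2, H, rfl⟩ := H
  refine ⟨h, _, f2, H.dg rfl, funext fun p => ?_⟩
  rw [sDg, H.pk' (dE_lt _) (by omega), FF]

theorem hz : St fun p => F (sHz p) := by
  obtain ⟨h, f1, f2, H, rfl⟩ := H
  refine ⟨_, _, f2, H.hz, funext fun p => ?_⟩
  rw [sHz, H.pk' (dE_lt _) (by omega), FF]
  have hp : dE p < 2 := l2 _
  generalize dE p = e at hp ⊢
  interval_cases e
  · simp
  · rw [mul_one, H.s1.neg, H.s1.cen, pow_one, pow_one, mul_assoc, mul_assoc]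

theorem sym (s : ℕ) : St fun p => F (sg s p) := by
  unfold sg
  split_ifs
  exacts [H, H.sw, H.dg, H.dg.sw]

end St

theorem exists_ty [Finite G] {H H₁ H₂ : Subgroup G} (h1 : H₁ ≤ H) (h2 : H₂ ≤ H)
    (hn1 : (H₁.subgroupOf H).Normal) (hn2 : (H₂.subgroupOf H).Normal)
    (e1 : H₁ ≃* Matrix.SpecialLinearGroup (Fin 2) (ZMod 3))
    (e2 : H₂ ≃* Matrix.SpecialLinearGroup (Fin 2) (ZMod 3)) (hidx : (H₁ ⊔ H₂).relIndex H = 2)
    (hint1 : H₁ ⊓ H₂ = H₁ ⊓ centralizer (H₁ : Set G))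
    (hint2 : H₁ ⊓ H₂ = H₂ ⊓ centralizer (H₂ : Set G))
    (hHC : H = centralizer ((H₁ ⊓ H₂ : Subgroup G) : Set G)) :
    ∃ e1 < 2, ∃ e2 < 2, ∃ dl < 2, ∃ F : ℕ → G, Ty e1 e2 dl F ∧ F 144 ∈ H₁ ⊓ H₂ := by
  obtain ⟨f1, s1, m1⟩ := exists_s24 e1
  obtain ⟨f2, s2, m2⟩ := exists_s24 e2
  have n1 : ∀ g ∈ H, ∀ x ∈ H₁, g * x * g⁻¹ ∈ H₁ := fun g hg x hx =>
    hn1.conj_mem ⟨x, h1 hx⟩ hx ⟨g, hg⟩
  have n2 : ∀ g ∈ H, ∀ x ∈ H₂, g * x * g⁻¹ ∈ H₂ := fun g hg x hx =>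
    hn2.conj_mem ⟨x, h2 hx⟩ hx ⟨g, hg⟩
  have M1 : ∀ i, f1 i ∈ H₁ := fun i => (m1 _).2 ⟨i, rfl⟩
  have M2 : ∀ i, f2 i ∈ H₂ := fun i => (m2 _).2 ⟨i, rfl⟩
  have Z1 : ∀ x ∈ H₁ ⊓ H₂, x = 1 ∨ x = f1 12 := fun x hx => by
    rw [hint1] at hx
    obtain ⟨i, rfl⟩ := (m1 x).1 hx.1
    exact s1.center (hx.2 _ (M1 1)).symm (hx.2 _ (M1 3)).symm
  have Z2 : ∀ x ∈ H₁ ⊓ H₂, x = 1 ∨ x = f2 12 := fun x hx => by
    rw [hint2] at hx
    obtain ⟨i, rfl⟩ := (m2 x).1 hx.1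
    exact s2.center (hx.2 _ (M2 1)).symm (hx.2 _ (M2 3)).symm
  have zm : f1 12 ∈ H₁ ⊓ H₂ := by
    rw [hint1]
    refine ⟨M1 _, fun x hx => ?_⟩
    obtain ⟨i, rfl⟩ := (m1 x).1 hx
    exact s1.cen i
  have z2 : f2 12 = f1 12 := ((Z2 _ zm).resolve_left s1.z1).symm
  have c3 : ∀ i j, f1 i * (f1 i * f1 i) = 1 → f1 i * f2 j = f2 j * f1 i := fun i j h3 => by
    have k : (f1 i)⁻¹ * (f2 j * f1 i * (f2 j)⁻¹) ∈ H₁ ⊓ H₂ := mem_inf.2 ⟨mul_mem (inv_mem (M1 i))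
      (n1 _ (h2 (M2 j)) _ (M1 i)), by
        have := mul_mem (n2 _ (inv_mem (h1 (M1 i))) _ (M2 j)) (inv_mem (M2 j))
        rw [inv_inv] at this
        simpa only [mul_assoc] using this⟩
    rcases Z1 _ k with e | e
    · rw [inv_mul_eq_one, eq_mul_inv_iff_mul_eq] at e
      exact e
    · rw [inv_mul_eq_iff_eq_mul] at e
      refine absurd ?_ s1.z1
      have a : (f1 i * f1 12) ^ 3 = 1 := by
        rw [← e, conj_pow, pow_three, h3]; group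
      rw [(show Commute (f1 i) (f1 12) from s1.cen i).mul_pow, pow_three, h3, pow_three, s1.zz] at a
      simpa using a
  have com : ∀ i j, f1 i * f2 j = f2 j * f1 i := fun i j =>
    s1.ind (P := fun x => Commute x (f2 j)) (Commute.one_left _)
      (fun x hx => hx.mul_left (c3 1 j s1.cube1)) (fun x hx => hx.mul_left (c3 3 j s1.cube3)) i
  have sup : ∀ x ∈ H₁ ⊔ H₂, ∃ i j, x = f1 i * f2 j := fun x hx => by
    have hx' : x ∈ ((H₁ ⊔ H₂ : Subgroup G) : Set G) := hx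
    rw [coe_mul_of_left_le_normalizer_right H₁ H₂ (fun g hg => mem_normalizer_fintype
      fun y hy => n2 g (h1 hg) y hy)] at hx'
    obtain ⟨a, ha, b, hb, rfl⟩ := hx'
    obtain ⟨i, rfl⟩ := (m1 a).1 ha
    obtain ⟨j, rfl⟩ := (m2 b).1 hb
    exact ⟨i, j, rfl⟩
  obtain ⟨⟨k, hk⟩, hk2⟩ := index_eq_two_iff'.1 hidx
  have hkn : k ∉ H₁ ⊔ H₂ := by
    have := hk2 1
    simp only [mul_one, one_mem, mem_subgroupOf] at this
    exact fun hh => by simp [Xor, hh] at this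
  obtain ⟨y1, ε1, l1, a1⟩ := s1.aut (k := k) fun i => by
    obtain ⟨j, e⟩ := (m1 _).1 (n1 _ (inv_mem hk) _ (M1 i))
    exact ⟨j, by rw [← e]; group⟩
  have hk' : k * f1 y1 ∈ H := mul_mem hk (h1 (M1 _))
  obtain ⟨y2, ε2, l2, a2⟩ := s2.aut (k := k * f1 y1) fun i => by
    obtain ⟨j, e⟩ := (m2 _).1 (n2 _ (inv_mem hk') _ (M2 i))
    exact ⟨j, by rw [← e]; group⟩
  set h := k * f1 y1 * f2 y2 with hh
  have a1' : ∀ i, f1 i * h = h * f1 (tw ε1 i) := fun i => by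
    rw [hh, ← mul_assoc, a1, mul_assoc, com, ← mul_assoc]
  have S1 : ∀ i, f1 i ∈ H₁ ⊔ H₂ := fun i => mem_sup_left (M1 i)
  have S2 : ∀ i, f2 i ∈ H₁ ⊔ H₂ := fun i => mem_sup_right (M2 i)
  have hH : h ∈ H := mul_mem hk' (h2 (M2 _))
  have hn : h ∉ H₁ ⊔ H₂ := fun e => hkn (by
    rwa [hh, mul_mem_cancel_right (S2 _), mul_mem_cancel_right (S1 _)] at e)
  have out : ∀ g ∈ H, g ∉ H₁ ⊔ H₂ → ∃ i j, g = h * (f1 i * f2 j) := fun g hg hg' => by
    have : (⟨h, hH⟩ : H)⁻¹ * ⟨g, hg⟩ ∈ (H₁ ⊔ H₂).subgroupOf H := by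
      rw [mul_mem_iff_of_index_two hidx, inv_mem_iff]
      exact iff_of_false hn hg'
    obtain ⟨i, j, e⟩ := sup _ this
    exact ⟨i, j, by rw [← e]; simp⟩
  obtain ⟨dl, l3, a3⟩ : ∃ dl < 2, h * h = f1 (12 * dl) := by
    obtain ⟨i, j, e⟩ := sup _ (show h * h ∈ H₁ ⊔ H₂ from
      mul_self_mem_of_index_two hidx ⟨h, hH⟩)
    have b1 : ∀ x, f1 i * f1 x = f1 x * f1 i := fun x => by
      have : f1 x * (h * h) = h * h * f1 x := by
        rw [← mul_assoc, a1', mul_assoc, a1', tw_tw, s1.md, mul_assoc h h]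
      rw [e, mul_assoc, ← com, ← mul_assoc, ← mul_assoc, mul_left_inj] at this
      exact this.symm
    have b2 : ∀ x, f2 j * f2 x = f2 x * f2 j := fun x => by
      have : f2 x * (h * h) = h * h * f2 x := by
        rw [← mul_assoc, a2, mul_assoc, a2, tw_tw, s2.md, mul_assoc h h]
      rw [e, ← mul_assoc, ← com, mul_assoc, mul_assoc, mul_right_inj] at this
      exact this.symm
    rcases s1.center (b1 1) (b1 3) with c1 | c1 <;> rcases s2.center (b2 1) (b2 3) with c2 | c2 <;>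
      rw [e, c1, c2]
    · exact ⟨0, by norm_num, by rw [mul_one, s1.one]⟩
    · exact ⟨1, by norm_num, by rw [one_mul, z2]⟩
    · exact ⟨1, by norm_num, by rw [mul_one]⟩
    · exact ⟨0, by norm_num, by rw [z2, s1.zz, s1.one]⟩
  have HH : Hy ε1 ε2 dl h f1 f2 := ⟨s1, s2, z2, com, fun i j e => Z1 _ ⟨M1 i, e ▸ M2 j⟩, a1', a2, a3,
    fun i j e => hn (e ▸ mul_mem (S1 i) (S2 j)), fun g hg => by
      have hg' : g ∈ H := by
        rw [hHC]
        intro x hx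
        rcases Z1 x hx with rfl | rfl
        · simp
        · exact hg.symm
      by_cases hg2 : g ∈ H₁ ⊔ H₂
      · obtain ⟨i, j, e⟩ := sup g hg2
        exact ⟨i, j, Or.inl e⟩
      · obtain ⟨i, j, e⟩ := out g hg' hg2
        exact ⟨i, j, Or.inr e⟩⟩
  exact ⟨ε1, l1, ε2, l2, dl, l3, _, ⟨h, f1, f2, HH, rfl⟩, (HH.f1_eq 12 :) ▸ zm⟩

end Cfsg.G23
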