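import Mathlib

/-! Normal subgroups of `SL₃(2)` contain elements of order seven. -/

set_option autoImplicit false
set_option maxRecDepth 100000
set_option synthInstance.maxSize 100000

namespace Cfsg.G23

open Subgroup

abbrev M3 : Type := Matrix (Fin 3) (Fin 3) (ZMod 2)

structure Q9 where
  a : Bool
  b : Bool
  c : Bool
  d : Bool
  e : Bool
  f : Bool
  g : Bool
  h : Bool
  i : Bool
  deriving DecidableEq

def Q9.mul (x y : Q9) : Q9 := ⟨xor (xor (x.a && y.a) (x.b && y.d)) (x.c && y.g),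
  xor (xor (x.a && y.b) (x.b && y.e)) (x.c && y.h),
  xor (xor (x.a && y.c) (x.b && y.f)) (x.c && y.i),
  xor (xor (x.d && y.a) (x.e && y.d)) (x.f && y.g),
  xor (xor (x.d && y.b) (x.e && y.e)) (x.f && y.h),
  xor (xor (x.d && y.c) (x.e && y.f)) (x.f && y.i),
  xor (xor (x.g && y.a) (x.h && y.d)) (x.i && y.g),
  xor (xor (x.g && y.b) (x.h && y.e)) (x.i && y.h),
  xor (xor (x.g && y.c) (x.h && y.f)) (x.i && y.i)⟩

def Q9.one : Q9 := ⟨true, false, false, false, true, false, false, false, true⟩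

def bz (x : Bool) : ZMod 2 := bif x then 1 else 0

def Q9.toM (x : Q9) : M3 := !![bz x.a, bz x.b, bz x.c; bz x.d, bz x.e, bz x.f; bz x.g, bz x.h, bz x.i]

theorem Q9.toM_mul (x y : Q9) : (x.mul y).toM = x.toM * y.toM := by
  have h1 : ∀ a b, bz (xor a b) = bz a + bz b := by decide
  have h2 : ∀ a b, bz (a && b) = bz a * bz b := by decide
  simp only [Q9.toM, Q9.mul, h1, h2, Matrix.mul_fin_three]

theorem Q9.toM_one : Q9.one.toM = 1 := by decide +kernel

theorem Q9.toM_inj {x y : Q9} (h : x.toM = y.toM) : x = y := by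
  have h1 : ∀ a b, bz a = bz b → a = b := by decide
  have k := fun i j => congrFun (congrFun h i) j
  cases x; cases y
  congr
  exacts [h1 _ _ (k 0 0), h1 _ _ (k 0 1), h1 _ _ (k 0 2), h1 _ _ (k 1 0), h1 _ _ (k 1 1),
    h1 _ _ (k 1 2), h1 _ _ (k 2 0), h1 _ _ (k 2 1), h1 _ _ (k 2 2)]

theorem Q9.toM_surj (g : M3) : ∃ a b c d e f k h i, g = Q9.toM ⟨a, b, c, d, e, f, k, h, i⟩ := by
  have h1 : ∀ x, ∃ a, x = bz a := by decide
  choose φ hφ using h1
  refine ⟨φ (g 0 0), φ (g 0 1), φ (g 0 2), φ (g 1 0), φ (g 1 1), φ (g 1 2), φ (g 2 0), φ (g 2 1),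
    φ (g 2 2), ?_⟩
  simp only [Q9.toM, ← hφ]
  exact Matrix.eta_fin_three g

def KL : List (Q9 × Q9 × Q9 × Q9) := [
  (⟨false, false, true, false, true, false, true, false, true⟩,
    ⟨true, false, true, false, true, false, true, false, false⟩,
    ⟨false, false, true, false, true, false, true, false, true⟩,
    ⟨true, false, true, false, true, false, true, false, false⟩),
  (⟨false, false, true, true, true, true, false, true, true⟩,
    ⟨false, true, true, true, false, true, true, false, false⟩,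
    ⟨true, false, false, false, false, true, true, true, true⟩,
    ⟨true, false, false, true, true, true, false, true, false⟩),
  (⟨false, true, true, true, false, false, true, true, false⟩,
    ⟨false, true, false, false, true, true, true, true, true⟩,
    ⟨true, true, false, false, true, true, false, true, false⟩,
    ⟨true, false, true, false, false, true, false, true, true⟩),
  (⟨false, true, false, true, true, false, true, false, true⟩,
    ⟨true, true, false, true, false, false, true, true, true⟩,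
    ⟨true, true, true, true, false, true, false, false, true⟩,
    ⟨false, true, true, true, true, false, false, false, true⟩),
  (⟨false, false, true, true, false, false, false, true, false⟩,
    ⟨false, true, false, false, false, true, true, false, false⟩,
    ⟨false, true, false, true, false, true, true, true, false⟩,
    ⟨true, false, true, true, false, false, true, true, true⟩),
  (⟨false, false, true, false, true, false, true, false, false⟩,
    ⟨false, false, true, false, true, false, true, false, false⟩,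
    ⟨false, false, true, false, true, false, true, true, true⟩,
    ⟨true, true, true, false, true, false, true, false, false⟩)]

def Q9.w (g : Q9) (k : Q9 × Q9 × Q9 × Q9) : Q9 :=
  (g.mul ((k.1.mul g).mul k.2.1)).mul ((k.2.2.1.mul g).mul k.2.2.2)

def Q9.p7 (w : Q9) : Q9 := ((((((w.mul w).mul w).mul w).mul w).mul w).mul w)

theorem KL1 : ∀ k ∈ KL, k.1.toM.det = 1 ∧ k.2.2.1.toM.det = 1 ∧ k.1.mul k.2.1 = .one ∧
    k.2.2.1.mul k.2.2.2 = .one := by
  simp only [Matrix.det_fin_three]
  decide +kernel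

theorem KL2 : ∀ a b c d e f k h i, (Q9.toM ⟨a, b, c, d, e, f, k, h, i⟩).det = 1 →
    (⟨a, b, c, d, e, f, k, h, i⟩ : Q9) ≠ .one → ∃ l ∈ KL,
      (Q9.w ⟨a, b, c, d, e, f, k, h, i⟩ l).p7 = .one ∧ Q9.w ⟨a, b, c, d, e, f, k, h, i⟩ l ≠ .one := by
  simp only [Matrix.det_fin_three]
  decide +kernel

theorem sl3_seven (N : Subgroup (Matrix.SpecialLinearGroup (Fin 3) (ZMod 2))) [hN : N.Normal]
    (h : N ≠ ⊥) : ∃ w ∈ N, w ≠ 1 ∧ w ^ 7 = 1 := by
  obtain ⟨⟨g, hg⟩, g1⟩ := ne_bot_iff_exists_ne_one.1 h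
  obtain ⟨a, b, c, d, e, f, k, h, i, eg⟩ := Q9.toM_surj g.1
  obtain ⟨l, hl, e1, e2⟩ := KL2 a b c d e f k h i (eg ▸ g.2) fun e =>
    g1 (Subtype.ext (Subtype.ext (by rw [eg, e, Q9.toM_one]; rfl)))
  obtain ⟨d1, d2, i1, i2⟩ := KL1 l hl
  let x : Matrix.SpecialLinearGroup (Fin 3) (ZMod 2) := ⟨_, d1⟩
  let y : Matrix.SpecialLinearGroup (Fin 3) (ZMod 2) := ⟨_, d2⟩
  have ia : (x⁻¹).1 = l.2.1.toM := by
    have : x⁻¹.1 * (x.1 * l.2.1.toM) = l.2.1.toM := by
      rw [← mul_assoc, ← Matrix.SpecialLinearGroup.coe_mul, inv_mul_cancel]; simp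
    rwa [show x.1 * l.2.1.toM = 1 by rw [← Q9.toM_one, ← i1, Q9.toM_mul], mul_one] at this
  have ib : (y⁻¹).1 = l.2.2.2.toM := by
    have : y⁻¹.1 * (y.1 * l.2.2.2.toM) = l.2.2.2.toM := by
      rw [← mul_assoc, ← Matrix.SpecialLinearGroup.coe_mul, inv_mul_cancel]; simp
    rwa [show y.1 * l.2.2.2.toM = 1 by rw [← Q9.toM_one, ← i2, Q9.toM_mul], mul_one] at this
  have e : (g * (x * g * x⁻¹) * (y * g * y⁻¹)).1 = (Q9.w ⟨a, b, c, d, e, f, k, h, i⟩ l).toM := by
    simp only [Matrix.SpecialLinearGroup.coe_mul, ia, ib, Q9.w, Q9.toM_mul, ← eg]; rfl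
  refine ⟨g * (x * g * x⁻¹) * (y * g * y⁻¹), mul_mem (mul_mem hg (hN.conj_mem _ hg _))
    (hN.conj_mem _ hg _), fun h => e2 (Q9.toM_inj (by rw [← e, h, Q9.toM_one]; rfl)), Subtype.ext ?_⟩
  have e3 := congrArg Q9.toM e1
  simp only [Q9.p7, Q9.toM_mul, Q9.toM_one] at e3
  rw [Matrix.SpecialLinearGroup.coe_pow, e]
  simpa [pow_succ] using e3

end Cfsg.G23
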