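import Cfsg.Agent.G23.B

/-! Checks in the eight candidate groups. -/

set_option autoImplicit false
set_option maxRecDepth 100000
set_option synthInstance.maxSize 100000
set_option Elab.async false

namespace Cfsg.G23

theorem I18 : ∀ e1 < 2, ∀ e2 < 2, ∀ dl < 2, ∀ p < 576, dE p = 0 → mt e1 e2 dl p p = 0 → p ≠ 0 →
    p ≠ 144 → p ∈ [117, 118, 119, 129, 130, 131, 141, 142, 143, 261, 262, 263, 273, 274, 275, 285,
      286, 287] := by decide +kernel

theorem kill1 : ∀ e1 < 2, ∀ e2 < 2, ∀ dl < 2, e1 * e2 = 0 → ∀ s ∈ List.range 576, ∀ u ∈ [117, 118, 119, 129, 130,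
    131, 141, 142, 143, 261, 262, 263, 273, 274, 275, 285, 286, 287],
    mt e1 e2 dl s u = mt e1 e2 dl u s → ∀ v ∈ [117, 118, 119, 129, 130,
    131, 141, 142, 143, 261, 262, 263, 273, 274, 275, 285, 286, 287],
    mt e1 e2 dl u v = mt e1 e2 dl v u → mt e1 e2 dl v s = mt e1 e2 dl s (mt e1 e2 dl u v) →
    v = u ∨ v = mt e1 e2 dl u 144 := by
  intro e1 l1 e2 l2 dl l3 h
  interval_cases e1 <;> interval_cases e2 <;> interval_cases dl <;>
    first | omega | decide +kernel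

theorem kill2 : ∀ u ∈ [117, 118, 119, 129, 130,
    131, 141, 142, 143, 261, 262, 263, 273, 274, 275, 285, 286, 287],
    (∃ x ∈ [9, 10, 11, 108, 120, 132], mt 1 1 1 x x = 144 ∧ mt 1 1 1 x u = mt 1 1 1 u x ∧ ∃ y ∈ List.range 576, mt 1 1 1 y y = 144 ∧
      mt 1 1 1 y u = mt 1 1 1 u y ∧ mt 1 1 1 x y ≠ mt 1 1 1 y x) ∧
    ∀ x ∈ List.range 576, mt 1 1 1 x x = u → ∀ y ∈ List.range 576, mt 1 1 1 y y = u → mt 1 1 1 x y = mt 1 1 1 y x := by
  decide +kernel

theorem conjU : ∀ u ∈ [117, 118, 119, 129, 130,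
    131, 141, 142, 143, 261, 262, 263, 273, 274, 275, 285, 286, 287],
    ∃ k < 576, m u k = m k 117 := by
  decide +kernel

end Cfsg.G23
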