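import Cfsg.Agent.G23.B
import Cfsg.Agent.G23.C0
import Cfsg.Agent.H4.D8Amal
import Cfsg.Agent.G23.C1
import Cfsg.Prelude.Def_Transfer
import Cfsg.Prelude.Def_Solvable

/-! The action of the second subgroup on its normal subgroup of order eight. -/

set_option autoImplicit false
set_option maxRecDepth 100000
set_option synthInstance.maxSize 100000

namespace Cfsg.G23

open Subgroup

/-- Independent triples. -/
def Ind {M : Type*} [Group M] (W : Subgroup M) (x y w : M) : Prop :=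
  (x ∈ W ∧ x ≠ 1) ∧ (y ∈ W ∧ y ≠ 1 ∧ y ≠ x) ∧ w ∈ W ∧ w ≠ 1 ∧ w ≠ x ∧ w ≠ y ∧ w ≠ x * y

theorem triples {M : Type*} [Group M] [Finite M] (W : Subgroup M) [hW : W.Normal]
    (e : M ⧸ W ≃* Matrix.SpecialLinearGroup (Fin 3) (ZMod 2)) (hc : ∀ x ∈ W, ∀ y ∈ W, x * y = y * x)
    (h2 : ∀ x ∈ W, x * x = 1) (h8 : Nat.card W = 8) {z u v : M} (hz : Ind W z u v)
    (hC : ∀ x, x * z = z * x → x ^ 576 = 1) {x y w : M} (hx : Ind W x y w) :
    ∃ g, z * g = g * x ∧ u * g = g * y ∧ v * g = g * w := by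
  classical
  have := Fintype.ofFinite M
  have cM : Nat.card M = 168 * 8 := by
    rw [card_eq_card_quotient_mul_card_subgroup W, Nat.card_congr e.toEquiv, H4.Low.card_SL3_two, h8]
  have CW : centralizer (W : Set M) ≤ W := by
    let φ := e.toMonoidHom.comp (QuotientGroup.mk' W)
    have hφ : Function.Surjective φ := e.surjective.comp (QuotientGroup.mk'_surjective W)
    have := (inferInstance : (centralizer (W : Set M)).Normal).map φ hφ
    by_cases hb : (centralizer (W : Set M)).map φ = ⊥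
    · intro g hg
      have : φ g = 1 := mem_bot.1 (hb ▸ mem_map_of_mem φ hg)
      exact (QuotientGroup.eq_one_iff g).1 (e.injective (this.trans (map_one e).symm))
    · obtain ⟨_, ⟨g, hg, rfl⟩, n1, n7⟩ := sl3_seven _ hb
      have n5 : φ g ^ 576 = 1 := by rw [← map_pow, hC g (hg z hz.1.1).symm, map_one]
      exact absurd (by simpa using (pow_gcd_eq_one.2 ⟨n7, n5⟩)) n1
  let V : Finset M := Finset.univ.filter (· ∈ W)
  have cV : V.card = 8 := by rw [← h8, Nat.card_eq_fintype_card, Fintype.card_subtype]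
  have c4 : ∀ {x y : M}, x ∈ W → x ≠ 1 → y ≠ 1 → y ≠ x → ({1, x, y, x * y} : Finset M).card = 4 := by
    intro x y hx x1 y1 yx
    have n1 : x * y ≠ 1 := fun e => yx (by
      rw [← inv_eq_of_mul_eq_one_right e, inv_eq_of_mul_eq_one_right (h2 x hx)])
    rw [Finset.card_insert_of_notMem (by simp [x1.symm, y1.symm, n1.symm]),
      Finset.card_insert_of_notMem (by simp [yx.symm, y1]),
      Finset.card_insert_of_notMem (by simp [x1])]
    simp
  let S : Finset (Σ _ : M, Σ _ : M, M) := (V \ {1}).sigma fun x => (V \ {1, x}).sigma fun y =>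
    V \ {1, x, y, x * y}
  have mS : ∀ x y w, (⟨x, y, w⟩ : Σ _ : M, Σ _ : M, M) ∈ S ↔ Ind W x y w := fun x y w => by
    simp [S, V, Ind]
  have cS : S.card = 168 := by
    rw [Finset.card_sigma, Finset.sum_const_nat (m := 24), Finset.card_sdiff_of_subset (by
      simp [V]), cV, Finset.card_singleton]
    intro x hx
    simp only [V, Finset.mem_sdiff, Finset.mem_filter, Finset.mem_univ, true_and,
      Finset.mem_singleton] at hx
    rw [Finset.card_sigma, Finset.sum_const_nat (m := 4), Finset.card_sdiff_of_subset (by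
      simp [V, Finset.insert_subset_iff, hx.1]), cV, Finset.card_pair (Ne.symm hx.2)]
    intro y hy
    simp only [V, Finset.mem_sdiff, Finset.mem_filter, Finset.mem_univ, true_and,
      Finset.mem_insert, Finset.mem_singleton, not_or] at hy
    rw [Finset.card_sdiff_of_subset (by
      simp [V, Finset.insert_subset_iff, hx.1, hy.1, mul_mem]), cV, c4 hx.1 hx.2 hy.2.1 hy.2.2]
  let Φ : M → Σ _ : M, Σ _ : M, M := fun g => ⟨g⁻¹ * z * g, g⁻¹ * u * g, g⁻¹ * v * g⟩
  have sub : Finset.univ.image Φ ⊆ S := by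
    intro t ht
    obtain ⟨g, -, rfl⟩ := Finset.mem_image.1 ht
    have k : ∀ a b : M, a ≠ b → g⁻¹ * a * g ≠ g⁻¹ * b * g := fun a b h e =>
      h (mul_left_cancel (mul_right_cancel e))
    have k1 : ∀ a : M, a ≠ 1 → g⁻¹ * a * g ≠ 1 := fun a h => by simpa using k a 1 h
    obtain ⟨⟨a1, a2⟩, ⟨b1, b2, b3⟩, c1, c2, c3, c4, c5⟩ := hz
    refine (mS _ _ _).2 ⟨⟨hW.conj_mem' _ a1 _, k1 _ a2⟩, ⟨hW.conj_mem' _ b1 _, k1 _ b2, k _ _ b3⟩,
      hW.conj_mem' _ c1 _, k1 _ c2, k _ _ c3, k _ _ c4, ?_⟩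
    rw [show g⁻¹ * z * g * (g⁻¹ * u * g) = g⁻¹ * (z * u) * g by group]
    exact k _ _ c5
  have fib : ∀ g, g * z = z * g → g * u = u * g → g * v = v * g → g ∈ W := fun g e1 e2 e3 => by
    refine CW fun a ha => ?_
    have hK : W ⊓ centralizer {g} = W := by
      refine eq_of_le_of_card_ge inf_le_left ?_
      have d := card_dvd_of_le (inf_le_left : W ⊓ centralizer {g} ≤ W)
      obtain ⟨⟨a1, a2⟩, ⟨b1, b2, b3⟩, c1, c2, c3, c4', c5⟩ := hz
      have m1 : z ∈ W ⊓ centralizer {g} := ⟨a1, mem_centralizer_singleton_iff.2 e1.symm⟩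
      have m2 : u ∈ W ⊓ centralizer {g} := ⟨b1, mem_centralizer_singleton_iff.2 e2.symm⟩
      have m3 : v ∈ W ⊓ centralizer {g} := ⟨c1, mem_centralizer_singleton_iff.2 e3.symm⟩
      have l : 5 ≤ Nat.card (W ⊓ centralizer {g} : Subgroup M) := by
        rw [Nat.card_eq_fintype_card, Fintype.card_subtype]
        refine le_trans (le_of_eq ?_) (Finset.card_le_card (s := {v, 1, z, u, z * u}) ?_)
        · rw [Finset.card_insert_of_notMem (by simp [c2, c3, c4', c5]), c4 a1 a2 b2 b3]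
        · intro t ht
          simp only [Finset.mem_insert, Finset.mem_singleton] at ht
          rw [Finset.mem_filter]
          rcases ht with rfl | rfl | rfl | rfl | rfl
          exacts [⟨by simp, m3⟩, ⟨by simp, one_mem _⟩, ⟨by simp, m1⟩, ⟨by simp, m2⟩,
            ⟨by simp, mul_mem m1 m2⟩]
      rw [h8] at d ⊢
      have := Nat.le_of_dvd (by norm_num) d
      generalize Nat.card (W ⊓ centralizer {g} : Subgroup M) = n at *
      interval_cases n <;> omega
    exact mem_centralizer_singleton_iff.1 (hK.ge ha).2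
  have le := Finset.card_le_mul_card_image (f := Φ) Finset.univ 8 (by
    intro t ht
    obtain ⟨g, -, rfl⟩ := Finset.mem_image.1 ht
    rw [← cV]
    refine Finset.card_le_card_of_injOn (fun x => x * g⁻¹) (fun x hx => ?_)
      fun x _ y _ e => mul_right_cancel e
    have hx' : Φ x = Φ g := (Finset.mem_filter.1 hx).2
    simp only [Φ, Sigma.mk.injEq, heq_eq_eq] at hx'
    have k : ∀ a : M, x⁻¹ * a * x = g⁻¹ * a * g → x * g⁻¹ * a = a * (x * g⁻¹) := fun a e => by
      calc _ = x * (g⁻¹ * a * g) * g⁻¹ := by group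
        _ = _ := by rw [← e]; group
    exact Finset.mem_filter.2 ⟨by simp, fib _ (k _ hx'.1) (k _ hx'.2.1) (k _ hx'.2.2)⟩)
  rw [Finset.card_univ, ← Nat.card_eq_fintype_card, cM] at le
  have := Finset.eq_of_subset_of_card_le sub (by omega)
  obtain ⟨g, -, hg⟩ := Finset.mem_image.1 (this ▸ (mS _ _ _).2 hx)
  simp only [Φ, Sigma.mk.injEq, heq_eq_eq] at hg
  exact ⟨g, by rw [← hg.1]; group, by rw [← hg.2.1]; group, by rw [← hg.2.2]; group⟩

theorem mfacts {G : Type*} [Group G] [Finite G] (M : Subgroup G) [hOM : (pCore 2 M).Normal]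
    (e : (M ⧸ pCore 2 M) ≃* Matrix.SpecialLinearGroup (Fin 3) (ZMod 2))
    (hOel : IsElementaryAbelian 2 (pCore 2 M)) (hOcard : Nat.card (pCore 2 M) = 8) {z : G}
    (hz : z ∈ (pCore 2 M).map M.subtype) (z1 : z ≠ 1)
    (hC : Nat.card (centralizer ({z} : Set G)) = 576) :
    7 ∣ Nat.card G ∧ ∃ u v s s' ρ : G, u * u = 1 ∧ v * v = 1 ∧ u * z = z * u ∧ v * z = z * v ∧
      u * v = v * u ∧ u ≠ 1 ∧ u ≠ z ∧ v ≠ 1 ∧ v ≠ z ∧ v ≠ u ∧ v ≠ u * z ∧
      s * z = z * s ∧ s * u = u * s ∧ v * s = s * (u * v) ∧ s' * z = z * s' ∧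
      u * s' = s' * (u * v) ∧ z * ρ = ρ * u ∧ u * ρ = ρ * (u * z) := by
  classical
  obtain ⟨z, hz, rfl⟩ := hz
  set W := pCore 2 M
  have := Fintype.ofFinite M
  have hc : ∀ x ∈ W, ∀ y ∈ W, x * y = y * x := fun x hx y hy =>
    have := hOel.1
    congrArg Subtype.val (mul_comm' (⟨x, hx⟩ : W) ⟨y, hy⟩)
  have h2 : ∀ x ∈ W, x * x = 1 := fun x hx => by rw [← sq, hOel.2 x hx]
  have cV : (Finset.univ.filter (· ∈ W)).card = 8 := by
    rw [← hOcard, Nat.card_eq_fintype_card, Fintype.card_subtype]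
  have z1' : z ≠ 1 := fun e => z1 (by rw [e, map_one])
  obtain ⟨u, hu, nu⟩ := Finset.exists_mem_notMem_of_card_lt_card (s := {1, z})
    (t := Finset.univ.filter (· ∈ W)) (Finset.card_le_two.trans_lt (by omega))
  obtain ⟨v, hv, nv⟩ := Finset.exists_mem_notMem_of_card_lt_card (s := {1, z, u, z * u})
    (t := Finset.univ.filter (· ∈ W)) (Finset.card_le_four.trans_lt (by omega))
  simp only [Finset.mem_filter, Finset.mem_univ, true_and, Finset.mem_insert, Finset.mem_singleton,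
    not_or] at hu hv nu nv
  have I : Ind W z u v := ⟨⟨hz, z1'⟩, ⟨hu, nu.1, nu.2⟩, hv, nv.1, nv.2.1, nv.2.2.1, nv.2.2.2⟩
  have hC' : ∀ x : M, x * z = z * x → x ^ 576 = 1 := fun x hx => by
    have := pow_card_eq_one' (x := (⟨x, mem_centralizer_singleton_iff.2
      (congrArg Subtype.val hx)⟩ : centralizer ({M.subtype z} : Set G)))
    rw [hC] at this
    have h3 : (x : G) ^ 576 = 1 := congrArg Subtype.val this
    exact Subtype.ext h3
  have q : ∀ {a b c : M}, a ∈ W → a * b = c → b = a * c := fun ha e => by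
    rw [← e, ← mul_assoc, h2 _ ha, one_mul]
  have n1 : u * v ≠ 1 := fun e => nv.2.2.1 (by simpa using q hu e)
  have n2 : u * v ≠ z := fun e => nv.2.2.2 (by rw [q hu e, hc u hu z hz])
  have n3 : u * v ≠ u := fun e => nv.1 (by simpa using e)
  have n4 : u * v ≠ z * u := fun e => nv.2.1 (by rwa [hc z hz u hu, mul_right_inj] at e)
  obtain ⟨s, s1, s2, s3⟩ := triples W e hc h2 hOcard I hC' (x := z) (y := u) (w := u * v)
    ⟨I.1, I.2.1, mul_mem hu hv, n1, n2, n3, n4⟩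
  obtain ⟨s', t1, t2, -⟩ := triples W e hc h2 hOcard I hC' (x := z) (y := u * v) (w := v)
    ⟨I.1, ⟨mul_mem hu hv, n1, n2⟩, hv, nv.1, nv.2.1, fun e => nu.1 (by simpa using e), fun e =>
      nu.2 (by rw [← mul_assoc, eq_comm, mul_eq_right] at e; simpa using q hz e)⟩
  obtain ⟨ρ, r1, r2, -⟩ := triples W e hc h2 hOcard I hC' (x := u) (y := u * z) (w := v)
    ⟨⟨hu, nu.1⟩, ⟨mul_mem hu hz, fun e => nu.2 (by simpa using (q hu e).symm), by simpa using z1'⟩,
      hv, nv.1, nv.2.2.1, by rw [hc u hu z hz]; exact nv.2.2.2,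
      by rw [← mul_assoc, h2 u hu, one_mul]; exact nv.2.1⟩
  have c : ∀ {a b : M}, a = b → (a : G) = b := fun e => congrArg _ e
  have c' : ∀ {a b : M}, a ≠ b → (a : G) ≠ b := fun n e => n (Subtype.ext e)
  refine ⟨(Dvd.dvd.trans ?_ (card_subgroup_dvd_card M)), u, v, s, s', ρ, c (h2 u hu), c (h2 v hv),
    c (hc u hu z hz), c (hc v hv z hz), c (hc u hu v hv), c' nu.1, c' nu.2, c' nv.1, c' nv.2.1,
    c' nv.2.2.1, c' (b := u * z) (hc u hu z hz ▸ nv.2.2.2), c s1.symm, c s2.symm, c s3, c t1.symm,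
    c t2, c r1, c r2⟩
  rw [card_eq_card_quotient_mul_card_subgroup W, Nat.card_congr e.toEquiv, H4.Low.card_SL3_two, hOcard]
  norm_num

theorem std {G : Type*} [Group G] {e1 e2 dl : ℕ} (l1 : e1 < 2) (l2 : e2 < 2) (l3 : dl < 2)
    {F : ℕ → G} (H : Ty e1 e2 dl F) {u v s s' ρ : G} (u2 : u * u = 1) (v2 : v * v = 1)
    (uz : u * F 144 = F 144 * u) (vz : v * F 144 = F 144 * v) (uv : u * v = v * u) (u1 : u ≠ 1)
    (u3 : u ≠ F 144) (v1 : v ≠ 1) (v3 : v ≠ F 144) (v4 : v ≠ u) (v5 : v ≠ u * F 144)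
    (s1 : s * F 144 = F 144 * s) (s2 : s * u = u * s) (s3 : v * s = s * (u * v))
    (t1 : s' * F 144 = F 144 * s') (t2 : u * s' = s' * (u * v)) (r1 : F 144 * ρ = ρ * u)
    (r2 : u * ρ = ρ * (u * F 144)) :
    St F ∧ ∃ ρ : G, F 144 * ρ = ρ * F 117 ∧ F 117 * ρ = ρ * F 261 := by
  obtain ⟨u, hu, rfl⟩ := H.cov uz
  obtain ⟨v, hv, rfl⟩ := H.cov vz
  obtain ⟨s, hs, rfl⟩ := H.cov s1
  obtain ⟨s', hs', rfl⟩ := H.cov t1
  rw [H.mul u v, H.mm] at s3 t2
  have d1 := congrArg dE s3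
  have d2 := congrArg dE t2
  simp only [dE_mt] at d1 d2
  have := dE_lt u
  have := dE_lt v
  have mu := I18 _ l1 _ l2 _ l3 u hu (by omega) (H.m1.1 u2) (fun e => u1 (e ▸ H.one))
    fun e => u3 (by rw [e])
  have mv := I18 _ l1 _ l2 _ l3 v hv (by omega) (H.m1.1 v2) (fun e => v1 (e ▸ H.one))
    fun e => v3 (by rw [e])
  have e12 : e1 * e2 ≠ 0 := fun e => by
    rcases kill1 _ l1 _ l2 _ l3 e s (List.mem_range.2 hs) u mu (H.mm.1 s2) v mv (H.mm.1 uv) s3 with e | e
    · exact v4 (by rw [e])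
    · exact v5 (by rw [e, H.mul])
  obtain rfl : e1 = 1 := by rcases e1 with _ | _ | _ <;> omega
  obtain rfl : e2 = 1 := by omega
  obtain rfl : dl = 0 := by
    by_contra hd
    obtain rfl : dl = 1 := by omega
    obtain ⟨⟨x, -, x1, x2, y, -, y1, y2, n⟩, k⟩ := kill2 u mu
    have key : ∀ x, mt 1 1 1 x x = 144 → mt 1 1 1 x u = mt 1 1 1 u x →
        ∃ p < 576, ρ⁻¹ * F x * ρ = F p ∧ mt 1 1 1 p p = u := fun x x1 x2 => by
      have a1 : ρ⁻¹ * F x * ρ * (ρ⁻¹ * F x * ρ) = F u := by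
        calc _ = ρ⁻¹ * (F x * F x * ρ) := by group
          _ = _ := by rw [H.mul, x1, r1]; group
      have a2 : ρ⁻¹ * F x * ρ * (F u * F 144) = F u * F 144 * (ρ⁻¹ * F x * ρ) := by
        rw [show F u * F 144 = ρ⁻¹ * F u * ρ by rw [mul_assoc, r2]; group]
        calc _ = ρ⁻¹ * (F x * F u) * ρ := by group
          _ = _ := by rw [H.mm.2 x2]; group
      have a3 : ρ⁻¹ * F x * ρ * F 144 = F 144 * (ρ⁻¹ * F x * ρ) := by
        generalize ρ⁻¹ * F x * ρ = w at a1 a2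
        have a4 : w * F u = F u * w := by rw [← a1, mul_assoc]
        rw [← mul_assoc, a4, mul_assoc, mul_assoc, mul_right_inj] at a2
        exact a2
      obtain ⟨p, hp, e⟩ := H.cov a3
      rw [e, H.mul] at a1
      exact ⟨p, hp, e, H.inj' (mt_lt _ _ _ _ _) hu a1⟩
    obtain ⟨p, hp, p1, p2⟩ := key x x1 x2
    obtain ⟨q, hq, q1, q2⟩ := key y y1 y2
    have := H.mm.2 (k p (List.mem_range.2 hp) p2 q (List.mem_range.2 hq) q2)
    rw [← p1, ← q1] at this
    refine n (H.mm.1 ?_)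
    calc _ = ρ * (ρ⁻¹ * F x * ρ * (ρ⁻¹ * F y * ρ)) * ρ⁻¹ := by group
      _ = _ := by rw [this]; group
  have H' : St F := H
  obtain ⟨k, -, e⟩ := conjU u mu
  have e := H'.mm.2 e
  have e' : F 117 = (F k)⁻¹ * F u * F k := by rw [mul_assoc, e]; group
  have ez : F 144 = (F k)⁻¹ * F 144 * F k := by rw [mul_assoc, ← H.cz]; group
  refine ⟨H, (F k)⁻¹ * ρ * F k, ?_, ?_⟩
  · rw [ez, e']
    calc _ = (F k)⁻¹ * (F 144 * ρ) * F k := by group
      _ = _ := by rw [r1]; group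
  · rw [show F 261 = F 117 * F 144 by rw [H'.mul]; congr 1, ez, e']
    calc _ = (F k)⁻¹ * (F u * ρ) * F k := by group
      _ = _ := by rw [r2]; group

end Cfsg.G23
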