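import Cfsg.Agent.G23.B

/-! An element of order three normalizing the four-group. -/

set_option autoImplicit false
set_option maxRecDepth 100000
set_option synthInstance.maxSize 100000
set_option Elab.async false

namespace Cfsg.G23

open Subgroup

variable {G : Type*} [Group G]

/-- `g⁻¹ x g = y`. -/
def Cj (x g y : G) : Prop := x * g = g * y

theorem Cj.tr {x g y k w : G} (h : Cj x g y) (h' : Cj y k w) : Cj x (g * k) w := by
  unfold Cj at *; rw [← mul_assoc, h, mul_assoc, h', mul_assoc]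

theorem Cj.inv {x g y : G} (h : Cj x g y) : Cj y g⁻¹ x := by
  unfold Cj at *; rw [eq_inv_mul_iff_mul_eq, ← mul_assoc, ← h]; group

theorem Cj.mul {x g y x' y' : G} (h : Cj x g y) (h' : Cj x' g y') : Cj (x * x') g (y * y') := by
  unfold Cj at *; rw [mul_assoc, h', ← mul_assoc, h, mul_assoc]

theorem Cj.eq {x g y : G} (h : Cj x g y) : y = g⁻¹ * x * g := by
  unfold Cj at *; rw [mul_assoc, h]; group

theorem Cj.of (x g : G) : Cj x g (g⁻¹ * x * g) := by unfold Cj; group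

theorem Cj.uniq {x g y y' : G} (h : Cj x g y) (h' : Cj x g y') : y = y' := h.eq.trans h'.eq.symm

theorem Cj.one (g : G) : Cj 1 g 1 := by simp [Cj]

theorem Cj.comm {x g y x' y' : G} (h : Cj x g y) (h' : Cj x' g y') (c : x * x' = x' * x) :
    y * y' = y' * y := (h.mul h').uniq (c ▸ h'.mul h)

def LB : List ℕ := [0, 9, 108, 117, 130, 131, 142, 143, 144, 153, 252, 261, 274, 275, 286, 287, 288,
  297, 396, 405, 418, 419, 430, 431, 432, 441, 540, 549, 562, 563, 574, 575]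

def LW : List (ℕ × List ℕ) := [(0, []), (9, [0, 1, 2, 0, 2]), (108, [1]), (117, [0, 2, 0, 2]),
  (130, [0, 2, 0]), (131, [2, 1]), (142, [0, 2, 1, 0]), (143, [2]), (144, [1, 1]),
  (153, [0, 2, 0, 2, 1]), (252, [0, 1, 0]), (261, [0, 1, 1, 2, 0, 2]), (274, [0, 1, 1, 2, 0]),
  (275, [1, 2]), (286, [0, 1, 2, 0]), (287, [1, 1, 2]), (288, [0]), (297, [1, 2, 0, 2]),
  (396, [0, 1]), (405, [2, 0, 2]), (418, [2, 0]), (419, [0, 2, 1]), (430, [2, 1, 0]), (431, [0, 2]),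
  (432, [0, 1, 1]), (441, [2, 0, 2, 1]), (540, [1, 0]), (549, [1, 1, 2, 0, 2]), (562, [1, 1, 2, 0]),
  (563, [0, 1, 2]), (574, [1, 2, 0]), (575, [0, 1, 1, 2])]

def s3 (x y w i : ℕ) : ℕ := if i = 0 then x else if i = 1 then y else w

def be (x y w p : ℕ) : ℕ := ((LW.lookup p).getD []).foldl (fun r i => m r (s3 x y w i)) 0

def DT : List (ℕ × ℕ × ℕ × ℕ × ℕ × ℕ) := [(1, 288, 275, 288, 153, 130), (0, 0, 0, 288, 108, 143),
  (0, 108, 0, 432, 108, 287), (1, 396, 131, 432, 153, 274), (3, 406, 143, 297, 9, 142),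
  (2, 11, 0, 441, 252, 131), (3, 298, 287, 441, 9, 286), (2, 119, 0, 297, 252, 275)]

theorem LB1 : ∀ p ∈ LB, p < 576 ∧ m p 117 = m 117 p ∧ be 288 108 143 p = p ∧
    m (m p p) (m p p) = 0 ∧ m 262 (m p 262) ∈ LB := by decide +kernel

theorem LB2 : ∀ p < 576, m p 117 = m 117 p → p ∈ LB := by decide +kernel

theorem LB3 : ∀ x ∈ LB, m x x = 0 → ∀ y ∈ LB, m y y = 117 → ∀ w ∈ LB, m w w = 0 →
    be x y w 117 = 261 → be x y w (m 262 (m x 262)) = m 262 (m 288 262) →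
    be x y w (m 262 (m y 262)) = m 262 (m 108 262) → be x y w (m 262 (m w 262)) = m 262 (m 143 262) →
    be x y w (be x y w x) = 288 → be x y w (be x y w y) = 108 → be x y w (be x y w w) = 143 →
    ∃ d ∈ DT, d.2.2.1 ∈ LB ∧ d.2.2.2.1 ∈ LB ∧ d.2.2.2.2.1 ∈ LB ∧ d.2.2.2.2.2 ∈ LB ∧
      m d.2.2.2.1 d.2.1 = m d.2.1 (sg d.1 288) ∧ m d.2.2.2.2.1 d.2.1 = m d.2.1 (sg d.1 108) ∧
      m d.2.2.2.2.2 d.2.1 = m d.2.1 (sg d.1 143) ∧
      m (be x y w d.2.2.2.1) d.2.1 = m d.2.1 (sg d.1 143) ∧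
      m (be x y w d.2.2.2.2.1) d.2.1 = m d.2.1 (sg d.1 575) ∧
      m (be x y w d.2.2.2.2.2) d.2.1 = m d.2.1 (sg d.1 441) ∧
      m (m d.2.2.1 262) d.2.1 = m d.2.1 (sg d.1 262) ∧
      m d.2.2.1 (be x y w (m 262 (m d.2.2.1 262))) = 0 := by decide +kernel

structure RR (F : ℕ → G) (r : G) : Prop where
  r3 : r * (r * r) = 1
  tr : F 262 * r * (F 262 * r) = 1
  c1 : Cj (F 288) r (F 143)
  c2 : Cj (F 108) r (F 575)
  c3 : Cj (F 143) r (F 441)

variable {F : ℕ → G}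

theorem St.cj (H : St F) {p k q : ℕ} (e : m p k = m k q) : Cj (F p) (F k) (F q) := H.mm.2 e

theorem St.ev (H : St F) {p q s : ℕ} (e : m p q = s) : F p * F q = F s := by rw [H.mul, e]

theorem St.first (H : St F) {ρ : G} (r1 : Cj (F 144) ρ (F 117)) (r2 : Cj (F 117) ρ (F 261)) :
    ∃ r, r * (r * r) = 1 ∧ F 262 * r * (F 262 * r) = 1 ∧ Cj (F 144) r (F 117) ∧
      Cj (F 117) r (F 261) := by
  have r3 : Cj (F 261) ρ (F 144) := by
    have := r2.mul r1
    rwa [H.ev (s := 261) (by decide +kernel), H.ev (s := 144) (by decide +kernel)] at this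
  have t1 : Cj (F 144) (F 262) (F 144) := H.cj (by decide +kernel)
  have t2 : Cj (F 117) (F 262) (F 261) := H.cj (by decide +kernel)
  have t3 : Cj (F 261) (F 262) (F 117) := H.cj (by decide +kernel)
  have tt : F 262 * F 262 = 1 := H.m1.2 (by decide +kernel)
  have y1 := t1.tr ((r3.inv.tr t3).tr r2)
  have y2 := t2.tr ((r2.inv.tr t2).tr r3)
  have y3 := t3.tr ((r1.inv.tr t1).tr r1)
  have ty : F 262 * (F 262 * (ρ⁻¹ * F 262 * ρ)) * (F 262 * (F 262 * (ρ⁻¹ * F 262 * ρ))) = 1 := by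
    rw [← mul_assoc (F 262), tt, one_mul]
    calc _ = ρ⁻¹ * (F 262 * F 262) * ρ := by group
      _ = _ := by rw [tt]; group
  generalize F 262 * (ρ⁻¹ * F 262 * ρ) = y at y1 y2 y3 ty
  have a1 := (y1.tr y3).tr y2
  have a2 := (y2.tr y1).tr y3
  obtain ⟨p, hp, e⟩ := Ty.cov H a1.symm
  have a3 : m p 117 = m 117 p := H.mm.1 (e ▸ a2.symm)
  have a4 : (y * y * y) ^ 4 = 1 := by
    rw [e, show 4 = 2 * 2 from rfl, pow_mul, sq, sq, H.mul, H.m1]
    exact (LB1 p (LB2 p hp a3)).2.2.2.1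
  have a5 : y ^ 12 = 1 := by rw [← a4, ← pow_three', ← pow_mul]
  have e8 : y * y * y * (y * y * y) * (y * y) = y ^ 8 := by simp only [pow_succ, pow_zero, one_mul, mul_assoc]
  refine ⟨y ^ 8, ?_, ?_, e8 ▸ (a1.tr a1).tr (y1.tr y3), e8 ▸ (a2.tr a2).tr (y2.tr y1)⟩
  · rw [← pow_three, ← pow_mul, show 8 * 3 = 12 * 2 from rfl, pow_mul, a5, one_pow]
  · have ti : (F 262)⁻¹ = F 262 := inv_eq_of_mul_eq_one_right tt
    have : F 262 * y * (F 262)⁻¹ = y⁻¹ := by
      rw [ti, eq_inv_iff_mul_eq_one, mul_assoc, ty]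
    rw [← mul_assoc]
    nth_rewrite 2 [← ti]
    rw [← conj_pow, this]; group

theorem St.findR (H : St F) {ρ : G} (r1 : Cj (F 144) ρ (F 117)) (r2 : Cj (F 117) ρ (F 261)) :
    ∃ s r, RR (fun p => F (sg s p)) r := by
  obtain ⟨r, r3, tr, c1, c2⟩ := H.first r1 r2
  have tt : F 262 * F 262 = 1 := H.m1.2 (by decide +kernel)
  have uz : F 261 = F 117 * F 144 := (H.ev (by decide +kernel)).symm
  have inj : ∀ {p q}, p ∈ LB → q < 576 → F p = F q → p = q := fun hp hq e =>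
    Ty.inj' H (LB1 _ hp).1 hq e
  have hB : ∀ p ∈ LB, ∃ q ∈ LB, Cj (F p) r (F q) := fun p hp => by
    have a := Cj.of (F p) r
    have b1 := a.comm c1 (Ty.cz H p)
    have b2 := a.comm c2 (H.mm.2 (LB1 p hp).2.1)
    rw [uz, ← mul_assoc, b1, mul_assoc, mul_assoc (F 117), mul_right_inj] at b2
    obtain ⟨q, hq, e⟩ := Ty.cov H b2
    exact ⟨q, LB2 q hq (H.mm.1 (e ▸ b1)), e ▸ a⟩
  obtain ⟨x, hx, cx⟩ := hB 288 (by decide)
  obtain ⟨y, hy, cy⟩ := hB 108 (by decide)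
  obtain ⟨w, hw, cw⟩ := hB 143 (by decide)
  have k : ∀ (l : List ℕ) (s s' : ℕ), s' < 576 → Cj (F s) r (F s') →
      l.foldl (fun r i => m r (s3 x y w i)) s' < 576 ∧
      Cj (F (l.foldl (fun r i => m r (s3 288 108 143 i)) s)) r
        (F (l.foldl (fun r i => m r (s3 x y w i)) s')) := by
    intro l
    induction l with
    | nil => exact fun _ _ h h' => ⟨h, h'⟩
    | cons i l ih =>
      intro s s' _ h
      refine ih _ _ (m_lt _ _) ?_
      rw [← H.mul, ← H.mul]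
      refine h.mul ?_
      unfold s3
      split_ifs
      exacts [cx, cy, cw]
  have hβ : ∀ p ∈ LB, be x y w p ∈ LB ∧ Cj (F p) r (F (be x y w p)) := fun p hp => by
    obtain ⟨k1, k2⟩ := k ((LW.lookup p).getD []) 0 0 (by norm_num) (Ty.one H ▸ Cj.one r)
    have k3 : Cj (F (be 288 108 143 p)) r (F (be x y w p)) := k2
    rw [(LB1 p hp).2.2.1] at k3
    obtain ⟨q, hq, cq⟩ := hB p hp
    have k4 : q = be x y w p := inj hq k1 (cq.uniq k3)
    exact ⟨k4 ▸ hq, k3⟩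
  have sq : ∀ {p q s s'}, Cj (F p) r (F q) → Cj (F s) r (F s') → m p p = s → s' < 576 →
      m q q = s' := fun h h' e l => by
    have := h.mul h
    rw [H.ev e, H.mul] at this
    exact Ty.inj' H (m_lt _ _) l (this.uniq h')
  have c0 : Cj (F 0) r (F 0) := Ty.one H ▸ Cj.one r
  have ti : (F 262)⁻¹ = F 262 := inv_eq_of_mul_eq_one_right tt
  have ct : ∀ p, Cj (F p) (F 262) (F (m 262 (m p 262))) := fun p => by
    have := Cj.of (F p) (F 262)
    rwa [ti, mul_assoc, H.mul, H.mul] at this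
  have rtr : r * F 262 * r = F 262 := by
    calc _ = (F 262)⁻¹ * (F 262 * r * (F 262 * r)) := by group
      _ = _ := by rw [tr, ti, mul_one]
  have tc : ∀ {p q}, q ∈ LB → Cj (F p) r (F q) → be x y w (m 262 (m q 262)) = m 262 (m p 262) :=
    fun {p q} hq h => by
      have a := hβ _ (LB1 q hq).2.2.2.2
      have b := (h.tr (ct q)).tr a.2
      rw [rtr] at b
      exact inj a.1 (m_lt _ _) (b.uniq (ct p))
  have cu : ∀ {p q}, p < 576 → q ∈ LB → Cj (F p) r (F q) → be x y w (be x y w q) = p :=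
    fun {p q} hp hq h => by
      have a := hβ q hq
      have b := hβ _ a.1
      have c := (h.tr (a.2.tr b.2)).eq
      rw [r3] at c
      exact inj b.1 hp (by simpa using c)
  obtain ⟨⟨s, k, b, v1, v2, v3⟩, -, m0, m1, m2, m3, e1, e2, e3, e4, e5, e6, e7, e8⟩ :=
    LB3 x hx (sq cx c0 (by decide +kernel) (by norm_num)) y hy
      (sq cy c1 (by decide +kernel) (by norm_num)) w hw (sq cw c0 (by decide +kernel) (by norm_num))
      (inj (hβ 117 (by decide)).1 (by norm_num) ((hβ 117 (by decide)).2.uniq c2))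
      (tc hx cx) (tc hy cy) (tc hw cw) (cu (by norm_num) hx cx) (cu (by norm_num) hy cy)
      (cu (by norm_num) hw cw)
  refine ⟨s, (F k)⁻¹ * r * F k, ?_, ?_, ((H.cj e1).inv.tr (hβ _ m1).2).tr (H.cj e4),
    ((H.cj e2).inv.tr (hβ _ m2).2).tr (H.cj e5), ((H.cj e3).inv.tr (hβ _ m3).2).tr (H.cj e6)⟩
  · calc _ = (F k)⁻¹ * (r * (r * r)) * F k := by group
      _ = _ := by rw [r3]; group
  · have a := (hβ _ (LB1 b m0).2.2.2.2).2.eq
    have a' := H.m1.2 e8
    dsimp only at a a' e7 ⊢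
    rw [a, ← H.mul, ← H.mul] at a'
    have ri : r⁻¹ = F 262 * r * F 262 := by
      rw [eq_comm, eq_inv_iff_mul_eq_one, mul_assoc, tr]
    rw [(H.cj e7).eq, ← H.mul]
    calc _ = (F k)⁻¹ * (F b * (F 262 * r * F b * F 262 * r)) * F k := by group
      _ = (F k)⁻¹ * (F b * (F 262 * r * (F 262 * F 262) * F b * F 262 * r)) * F k := by
        rw [tt, mul_one]
      _ = (F k)⁻¹ * (F b * (r⁻¹ * (F 262 * (F b * F 262)) * r)) * F k := by rw [ri]; group
      _ = _ := by rw [a']; group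

namespace RR

variable {r : G} (R : RR F r) (H : St F)
include R H

theorem zu : Cj (F 144) r (F 117) := by
  have := R.c2.mul R.c2
  rwa [H.ev (s := 144) (by decide +kernel), H.ev (s := 117) (by decide +kernel)] at this

theorem uu : Cj (F 117) r (F 261) := by
  have a := R.c1.mul R.c3
  rw [H.mul, H.mul] at a
  have := a.mul a
  rwa [H.ev (s := 117) (by decide +kernel), H.ev (s := 261) (by decide +kernel)] at this

theorem zh : Cj (F 144) (r * F 13 * r⁻¹) (F 288) :=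
  ((R.zu H).tr (H.cj (by decide +kernel))).tr R.c1.inv

theorem hz : Cj (F 432) (r * F 13 * r⁻¹) (F 144) := by
  have := R.c1.mul (R.zu H)
  rw [H.ev (s := 432) (by decide +kernel), H.ev (s := 130) (by decide +kernel)] at this
  exact (this.tr (H.cj (by decide +kernel))).tr (R.zu H).inv

theorem fus {Y : Subgroup G} (hr : r ∈ Y) (hF : ∀ p, F p ∈ Y) {x : G} (c : x * F 144 = F 144 * x)
    (x2 : x * x = 1) (x1 : x ≠ 1) : ∃ k ∈ Y, Cj x k (F 144) := by
  have key : ∀ p < 576, m p p = 0 → p ≠ 0 → p = 144 ∨ ∃ k < 576, m p k = m k 117 ∨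
      m p k = m k 288 := by decide +kernel
  obtain ⟨p, hp, rfl⟩ := Ty.cov H c
  rcases key p hp (H.m1.1 x2) (fun e => x1 (e ▸ Ty.one H)) with rfl | ⟨k, -, e | e⟩
  · exact ⟨1, one_mem _, by simp [Cj]⟩
  · exact ⟨_, mul_mem (hF k) (inv_mem hr), (H.cj e).tr (R.zu H).inv⟩
  · exact ⟨_, mul_mem (hF k) (inv_mem (mul_mem (mul_mem hr (hF 13)) (inv_mem hr))),
      (H.cj e).tr (R.zh H).inv⟩

end RR

end Cfsg.G23
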