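import Cfsg.Agent.G23.D
import Cfsg.Agent.H5.ZStar
import Cfsg.Agent.H8.Isolated
import Cfsg.Agent.H9.Coprime

/-! An element of order three outside the centralizer of the involution. -/

set_option autoImplicit false
set_option maxRecDepth 100000
set_option synthInstance.maxSize 100000
set_option Elab.async false

namespace Cfsg.G23

open Subgroup
open scoped commutatorElement

variable {G : Type*} [Group G]

theorem fpf [Finite G] {W : Subgroup G} {v : G} (v2 : v * v = 1) (hv : v ∈ normalizer (W : Set G))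
    (h : ∀ y ∈ W, y * v = v * y → y = 1) {y : G} (hy : y ∈ W) : v * y * v⁻¹ = y⁻¹ := by
  let φ : W →* W :=
    { toFun := fun x => ⟨v * x * v⁻¹, (mem_normalizer_iff.1 hv x).1 x.2⟩
      map_one' := Subtype.ext (by simp)
      map_mul' := fun a b => Subtype.ext (by simp) }
  have h1 : MonoidHom.FixedPointFree φ := fun x hx => Subtype.ext (h x x.2
    (mul_inv_eq_iff_eq_mul.1 (congrArg Subtype.val hx)).symm)
  have h2 : Function.Involutive φ := fun x => Subtype.ext (by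
    show v * (v * x * v⁻¹) * v⁻¹ = x
    calc _ = v * v * x * (v * v)⁻¹ := by group
      _ = _ := by rw [v2]; group)
  exact congrArg Subtype.val (congrFun (h1.coe_eq_inv_of_involutive h2) ⟨y, hy⟩)

theorem inv_inv_comm {a b y : G} (h1 : a * y * a⁻¹ = y⁻¹) (h2 : b * y * b⁻¹ = y⁻¹) :
    y * (a * b) = a * b * y := by
  rw [eq_comm, ← mul_inv_eq_iff_eq_mul]
  calc _ = a * (b * y * b⁻¹) * a⁻¹ := by group
    _ = (a * y * a⁻¹)⁻¹ := by rw [h2]; group
    _ = _ := by rw [h1, inv_inv]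

theorem cube_of {y : G} {k : ℕ} (h1 : y ^ 24 = 1) (h2 : y ^ 3 ^ k = 1) : y ^ 3 = 1 :=
  orderOf_dvd_iff_pow_eq_one.1 ((Nat.Coprime.coprime_dvd_left (orderOf_dvd_of_pow_eq_one h2)
    (Nat.Coprime.pow_left k (by norm_num : Nat.Coprime 3 8))).dvd_of_dvd_mul_left
      (orderOf_dvd_of_pow_eq_one h1))

theorem dich [Finite G] {z h x w : G} {T A : Subgroup G} (z2 : z * z = 1) (z1 : z ≠ 1)
    (h2 : h * h = 1) (hz : h * z = z * h) (hA : IsPGroup 2 A) (zA : z ∈ A) (hA' : h ∈ A)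
    (hA2 : ∀ K : Subgroup G, z ∈ K → h ∈ K → A ≤ K)
    (e1 : ∀ y, y * z = z * y → y ^ 24 = 1) (e2 : ∀ y, y * h = h * y → y ^ 24 = 1)
    (e3 : ∀ y, y * (h * z) = h * z * y → y ^ 24 = 1) (T3 : ∀ t ∈ T, t ^ 3 = 1)
    (Tz : ∀ t ∈ T, t * z = z * t) (Th : ∀ t ∈ T, h * t * h⁻¹ = t⁻¹)
    (TT : ∀ s ∈ T, ∀ t ∈ T, s * t = t * s)
    (Tm : ∀ P : Subgroup G, IsPGroup 3 P → T ≤ P → ∀ y ∈ P, y * z = z * y → y ∈ T)
    (hx : x ∈ T) (hI : ∀ v, v * v = 1 → v ≠ 1 → v * z = z * v → v * x = x * v → v = z)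
    (w2 : w * w = 1) (w1 : w ≠ 1) (wz : w ≠ z) (wx : w * x = x * w) :
    ∃ o, o ^ 3 = 1 ∧ o ≠ 1 ∧ (∀ t ∈ T, o * t = t * o) ∧ z * o * z⁻¹ = o⁻¹ ∧
      (o * h = h * o ∨ o * (h * z) = h * z * o) := by
  have := Fact.mk Nat.prime_two
  have := Fact.mk Nat.prime_three
  have zi : z⁻¹ = z := inv_eq_of_mul_eq_one_right z2
  have wi : w⁻¹ = w := inv_eq_of_mul_eq_one_right w2
  set N := normalizer ((zpowers x : Subgroup G) : Set G) with hN
  have cN : ∀ g, g * x = x * g → g ∈ N := fun g hg => centralizer_le_normalizer _ (by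
    rintro _ ⟨k, rfl⟩
    exact ((show Commute g x from hg).zpow_right k).symm)
  have zN : z ∈ N := cN z (Tz x hx).symm
  have hN' : h ∈ N := mem_normalizer_fintype (by
    rintro _ ⟨k, rfl⟩
    show h * x ^ k * h⁻¹ ∈ zpowers x
    rw [← conj_zpow, Th x hx]
    exact zpow_mem (inv_mem (mem_zpowers x)) k)
  have oz : orderOf z = 2 := orderOf_eq_prime (by rw [sq, z2]) z1
  have zs := (H8.inZStar_subgroup_iff (p := 2) zN).1 (H5.zstar (by rwa [← orderOf_coe]) fun g hc => by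
    refine Subtype.ext (hI (g * z * (g : G)⁻¹) ?_ ?_ (congrArg Subtype.val hc).symm ?_)
    · calc _ = g * (z * z) * (g : G)⁻¹ := by group
        _ = _ := by rw [z2]; group
    · simpa using z1
    · obtain ⟨k, hk⟩ := (mem_normalizer_iff''.1 g.2 x).1 (mem_zpowers x)
      have : z * ((g : G)⁻¹ * x * g) = (g : G)⁻¹ * x * g * z := by
        rw [← hk]; exact ((show Commute z x from (Tz x hx).symm).zpow_right k)
      calc _ = g * (z * ((g : G)⁻¹ * x * g)) * (g : G)⁻¹ := by group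
        _ = _ := by rw [this]; group)
  set O := H7.pPrimeCoreOf 2 N
  have oO : (Nat.card O).Coprime 2 := H7.coprime_card_pPrimeCoreOf 2 N
  have nO : N ≤ normalizer (O : Set G) := H7.le_normalizer_pPrimeCoreOf 2 N
  have O3 : IsPGroup 3 O := by
    refine IsPGroup.of_card (Nat.eq_prime_pow_of_unique_prime_dvd Nat.card_pos.ne' fun {q} hq hd => ?_)
    by_contra q3
    have := Fact.mk hq
    obtain ⟨k, hk⟩ := hA.exists_card_eq
    have := hA.isNilpotent
    obtain ⟨S, hS, hAS⟩ := H9.CoprimeAct.exists_invariant_sylow (A := A) (K := O) ⟨inferInstance,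
      inferInstance, (hA2 N zN hN').trans nO, hk ▸ oO.symm.pow_left k, Or.inl inferInstance⟩ q
    have q2 : q ≠ 2 := by
      rintro rfl
      exact absurd (Nat.Coprime.eq_one_of_dvd oO.symm hd) (by norm_num)
    have k1 : ∀ y ∈ S, y ^ 24 = 1 → y = 1 := fun y hy e => by
      obtain ⟨j, hj⟩ := hS.isPGroup ⟨y, hy⟩
      have hj' : y ^ q ^ j = 1 := congrArg Subtype.val hj
      have : Nat.Coprime (q ^ j) 24 := Nat.Coprime.pow_left j (Nat.Coprime.mul_right (m := 2 ^ 3) (n := 3)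
        (Nat.Coprime.pow_right 3 ((Nat.coprime_primes hq Nat.prime_two).2 q2))
        ((Nat.coprime_primes hq Nat.prime_three).2 q3))
      simpa [this] using pow_gcd_eq_one.2 ⟨hj', e⟩
    refine hS.ne_bot hd (eq_bot_iff.2 fun y hy => k1 y hy (e3 y (inv_inv_comm ?_ ?_)))
    · exact fpf h2 (hAS hA') (fun y hy e => k1 y hy (e2 y e)) hy
    · exact fpf z2 (hAS zA) (fun y hy e => k1 y hy (e1 y e)) hy
  have T3' : IsPGroup 3 T := fun t => ⟨1, Subtype.ext (T3 t t.2)⟩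
  have P3 := T3'.to_sup_of_normal_right' O3 fun t ht => nO (cN t (TT t ht x hx))
  have lt : T < T ⊔ O := by
    refine lt_of_le_of_ne le_sup_left fun e => wz (hI w w2 w1 ?_ wx)
    have y1 := zs w (cN w wx)
    have y2 := Tz _ (e.ge (mem_sup_right y1))
    have y3 := T3 _ (e.ge (mem_sup_right y1))
    rw [commutatorElement_def, wi, zi] at y2 y3
    have y4 : (w * z * w * z) ^ 2 = 1 := by
      calc _ = w * z * w * (z * (w * z * w * z)) := by rw [sq]; group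
        _ = w * z * (w * w) * z * w * (z * z) := by rw [← y2]; group
        _ = w * (z * z) * w := by rw [w2, mul_one, mul_assoc w z z, z2, mul_one]
        _ = _ := by rw [z2, mul_one, w2]
    have y5 : w * z * w * z = 1 := by simpa using pow_gcd_eq_one.2 ⟨y4, y3⟩
    calc _ = (w * z * w * z) * (z⁻¹ * w⁻¹) := by group
      _ = _ := by rw [y5, zi, wi, one_mul]
  have lt' := H9.lt_inf_normalizer P3 lt
  set M := (T ⊔ O) ⊓ normalizer (T : Set G)
  have M3 : IsPGroup 3 M := P3.to_inf_left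
  have nM : ∀ v ∈ N, v ∈ normalizer (T : Set G) → v ∈ normalizer (M : Set G) := fun v a b =>
    inf_normalizer_le_normalizer_inf ⟨normalizer_inf_normalizer_le_normalizer_sup T O ⟨b, nO a⟩,
      le_normalizer b⟩
  have zM := nM z zN (centralizer_le_normalizer _ Tz)
  have hM := nM h hN' (mem_normalizer_fintype fun t ht => Th t ht ▸ inv_mem ht)
  have pw : ∀ y ∈ M, ∃ k, y ^ 3 ^ k = 1 := fun y hy => by
    obtain ⟨k, hk⟩ := M3 ⟨y, hy⟩
    exact ⟨k, congrArg Subtype.val hk⟩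
  have dec : ∀ n ∈ M, ∃ s ∈ M, (∀ t ∈ T, s * t = t * s) ∧ z * s * z⁻¹ = s⁻¹ ∧ s⁻¹ * n ∈ T := by
    intro n hn
    have ym : n * (z * n⁻¹ * z⁻¹) ∈ M := mul_mem hn ((mem_normalizer_iff.1 zM _).1 (inv_mem hn))
    have yc : ∀ t ∈ T, Commute (n * (z * n⁻¹ * z⁻¹)) t := fun t ht => by
      have a := Tz _ ((mem_normalizer_iff''.1 hn.2 t).1 ht)
      have b : Commute (n * z * n⁻¹) t := by
        show _ = _
        calc _ = n * (z * (n⁻¹ * t * n)) * n⁻¹ := by group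
          _ = _ := by rw [← a]; group
      have c : Commute z t := (Tz t ht).symm
      simpa only [mul_assoc] using b.mul_left c.inv_left
    have yz : z * (n * (z * n⁻¹ * z⁻¹)) * z⁻¹ = (n * (z * n⁻¹ * z⁻¹))⁻¹ := by
      calc _ = z * n * z * n⁻¹ * (z * z)⁻¹ := by group
        _ = z * n * z⁻¹ * n⁻¹ := by rw [z2, zi]; group
        _ = _ := by group
    obtain ⟨k, hk⟩ := pw _ ym
    obtain ⟨j, hj⟩ : Odd (3 ^ k) := Odd.pow (by decide)
    have ye : n * z * n⁻¹ = n * (z * n⁻¹ * z⁻¹) * z := by group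
    generalize n * (z * n⁻¹ * z⁻¹) = y at ym yc yz hk ye
    have s2 : y ^ (j + 1) * y ^ (j + 1) = y := by
      rw [← pow_add, show j + 1 + (j + 1) = 3 ^ k + 1 by omega, pow_succ, hk, one_mul]
    have sz : z * y ^ (j + 1) * z⁻¹ = (y ^ (j + 1))⁻¹ := by rw [← conj_pow, yz, inv_pow]
    refine ⟨y ^ (j + 1), pow_mem ym _, fun t ht => (yc t ht).pow_left _, sz,
      Tm M M3 lt'.le _ (mul_mem (inv_mem (pow_mem ym _)) hn) ?_⟩
    generalize y ^ (j + 1) = s at s2 sz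
    calc _ = s⁻¹ * (n * z * n⁻¹) * n := by group
      _ = s * z * n := by rw [ye, ← s2]; group
      _ = z⁻¹ * (z * s * z⁻¹) * (z * z) * n := by group
      _ = _ := by rw [sz, z2, zi]; group
  by_cases hc : ∀ y ∈ M, y * h = h * y → y = 1
  · obtain ⟨n, hn, nT⟩ := SetLike.exists_of_lt lt'
    obtain ⟨s, hs, s1, s2, s3⟩ := dec n hn
    obtain ⟨k, hk⟩ := pw s hs
    have c := inv_inv_comm (fpf h2 hM hc hs) s2
    exact ⟨s, cube_of (e3 s c) hk, fun e => nT (by simpa [e] using s3), s1, s2, Or.inr c⟩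
  · push Not at hc
    obtain ⟨o, ho, c, o1⟩ := hc
    obtain ⟨s, hs, s1, s2, s3⟩ := dec o ho
    obtain ⟨k, hk⟩ := pw o ho
    have a1 : o * (z * o * z⁻¹) = (s⁻¹ * o) ^ 2 := by
      have b1 := s1 _ s3
      have b2 := Tz _ s3
      obtain ⟨t, rfl⟩ : ∃ t, o = s * t := ⟨s⁻¹ * o, by group⟩
      rw [inv_mul_cancel_left] at b1 b2 ⊢
      calc _ = s * t * (z * s * z⁻¹) * (z * t) * z⁻¹ := by group
        _ = _ := by rw [s2, ← b2, b1, sq]; group
    have a2 : Commute h ((s⁻¹ * o) ^ 2) := by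
      have b1 : Commute h o := c.symm
      have b2 : Commute h z := hz
      exact a1 ▸ b1.mul_right ((b2.mul_right b1).mul_right b2.inv_right)
    have a3 := Th _ (pow_mem s3 2)
    rw [a2.eq, mul_inv_cancel_right, eq_inv_iff_mul_eq_one, ← pow_add] at a3
    have a4 : s⁻¹ * o = 1 := by simpa using pow_gcd_eq_one.2 ⟨a3, T3 _ s3⟩
    obtain rfl := inv_mul_eq_one.1 a4
    exact ⟨s, cube_of (e2 s c) hk, o1, s1, s2, Or.inl c⟩

variable {F : ℕ → G}

/-- The subgroup of the elements with numbers in a set. -/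
def St.sub (H : St F) (S : ℕ → Prop) (h0 : S 0) (h1 : ∀ p, S p → ∀ q, S q → S (m p q))
    (h2 : ∀ p, S p → ∃ q, S q ∧ m p q = 0) : Subgroup G where
  carrier := {x | ∃ p, S p ∧ x = F p}
  one_mem' := ⟨0, h0, (Ty.one H).symm⟩
  mul_mem' := by
    rintro _ _ ⟨p, hp, rfl⟩ ⟨q, hq, rfl⟩
    exact ⟨_, h1 p hp q hq, H.mul p q⟩
  inv_mem' := by
    rintro _ ⟨p, hp, rfl⟩
    obtain ⟨q, hq, e⟩ := h2 p hp
    exact ⟨q, hq, inv_eq_of_mul_eq_one_right (H.m1.2 e)⟩

def T9 : List ℕ := [0, 1, 2, 12, 13, 14, 24, 25, 26]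

def St.T (H : St F) : Subgroup G := H.sub (· ∈ T9) (by decide) (by decide +kernel) (by decide +kernel)

theorem St.p3 (H : St F) (p : ℕ) : F p ^ 3 = 1 ↔ m p (m p p) = 0 := by
  rw [pow_three, H.mul p p, H.m1]

theorem St.e24 (H : St F) {y : G} (h : y * F 144 = F 144 * y) : y ^ 24 = 1 := by
  have key : ∀ p < 576, (fun a => (fun b => (fun c => m c c = 0) (m b b)) (m a a)) (m p (m p p)) := by
    decide +kernel
  obtain ⟨p, hp, rfl⟩ := Ty.cov H h
  rw [show 24 = 3 * 2 * 2 * 2 from rfl, pow_mul, pow_mul, pow_mul, pow_three, sq, sq, sq,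
    H.mul p p, H.mul p, H.mul, H.mul, H.m1]
  exact key p hp

theorem Cj.e24 (H : St F) {v g y : G} (c : Cj v g (F 144)) (h : y * v = v * y) : y ^ 24 = 1 := by
  have := H.e24 ((Cj.of y g).comm c h)
  rw [← inv_inv g, inv_inv g⁻¹, conj_pow, conj_eq_one_iff] at this
  exact this

theorem RR.dich [Finite G] {r : G} (R : RR F r) (H : St F) {x : ℕ} (hx : x ∈ T9) (x0 : x ≠ 0) {w : G}
    (w2 : w * w = 1) (w1 : w ≠ 1) (wz : w ≠ F 144) (wx : w * F x = F x * w) :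
    ∃ o, o ^ 3 = 1 ∧ o ≠ 1 ∧ o * F 12 = F 12 * o ∧ o * F 1 = F 1 * o ∧
      F 144 * o * (F 144)⁻¹ = o⁻¹ ∧ (o * F 288 = F 288 * o ∨ o * F 432 = F 432 * o) := by
  have k1 : ∀ p ∈ T9, m p (m p p) = 0 ∧ m (m 288 p) (m 288 p) = 0 ∧ (∀ q ∈ T9, m p q = m q p) ∧
      (p ≠ 0 → ∀ v < 576, m v v = 0 → v ≠ 0 → m v p = m p v → v = 144) := by decide +kernel
  have k2 : ∀ p < 576, m p (m p p) = 0 → m (m p 12) (m (m p 12) (m p 12)) = 0 →
      m (m p 1) (m (m p 1) (m p 1)) = 0 → p ∈ T9 := by decide +kernel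
  have hh : F 288 * F 288 = 1 := H.m1.2 (by decide +kernel)
  have hz : F 288 * F 144 = F 432 := H.ev (by decide +kernel)
  obtain ⟨o, o3, o1, oT, oz, oh⟩ := G23.dich (z := F 144) (h := F 288) (x := F x) (w := w) (T := H.T)
    (A := H.sub (· ∈ [0, 144, 288, 432]) (by decide) (by decide +kernel) (by decide +kernel))
    (Ty.zz H) (Ty.ne1 H (by norm_num)) hh (Ty.cz H _)
    (by
      rintro ⟨_, p, hp, rfl⟩
      refine ⟨1, Subtype.ext (show F p ^ 2 = 1 by rw [sq, H.m1]; revert p; decide +kernel)⟩)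
    ⟨144, by decide, rfl⟩ ⟨288, by decide, rfl⟩
    (by
      rintro K a b _ ⟨p, hp, rfl⟩
      simp only [List.mem_cons, List.not_mem_nil, or_false] at hp
      rcases hp with rfl | rfl | rfl | rfl
      exacts [Ty.one H ▸ one_mem K, a, b, hz ▸ mul_mem b a])
    (fun y => H.e24) (fun y => (R.zh H).inv.e24 H) (fun y => hz ▸ (R.hz H).e24 H)
    (by rintro _ ⟨p, hp, rfl⟩; exact (H.p3 p).2 (k1 p hp).1)
    (by rintro _ ⟨p, hp, rfl⟩; exact Ty.cz H p)
    (by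
      rintro _ ⟨p, hp, rfl⟩
      rw [inv_eq_of_mul_eq_one_right hh, eq_inv_iff_mul_eq_one, mul_assoc, H.mul 288 p, H.m1]
      exact (k1 p hp).2.1)
    (by rintro _ ⟨p, hp, rfl⟩ _ ⟨q, hq, rfl⟩; exact H.mm.2 ((k1 p hp).2.2.1 q hq))
    (fun P hP hT y hy c => by
      have k : ∀ y ∈ P, y * F 144 = F 144 * y → y ^ 3 = 1 := fun y hy c => by
        obtain ⟨j, hj⟩ := hP ⟨y, hy⟩
        exact cube_of (H.e24 c) (congrArg Subtype.val hj)
      obtain ⟨p, hp, rfl⟩ := Ty.cov H c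
      have k' : ∀ q ∈ T9, m (m p q) (m (m p q) (m p q)) = 0 := fun q hq =>
        (H.p3 _).1 (k _ (H.mul p q ▸ mul_mem hy (hT ⟨q, hq, rfl⟩)) (Ty.cz H _))
      exact ⟨p, k2 p hp ((H.p3 p).1 (k _ hy c)) (k' 12 (by decide)) (k' 1 (by decide)), rfl⟩)
    ⟨x, hx, rfl⟩
    (fun v v2 v1 c c' => by
      obtain ⟨p, hp, rfl⟩ := Ty.cov H c
      rw [(k1 x hx).2.2.2 x0 p hp (H.m1.1 v2) (fun e => v1 (e ▸ Ty.one H)) (H.mm.1 c')])
    w2 w1 wz wx
  exact ⟨o, o3, o1, oT _ ⟨12, by decide, rfl⟩, oT _ ⟨1, by decide, rfl⟩, oz, hz ▸ oh⟩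

end Cfsg.G23
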