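import Cfsg.Agent.G23.B

/-! Counts in the centralizer of the involution. -/

set_option autoImplicit false
set_option maxRecDepth 100000
set_option synthInstance.maxSize 100000
set_option Elab.async false

namespace Cfsg.G23

open Finset

def NP (f d : ℕ) : Prop := (d ≤ f + 16 ∧ f ≤ d + 17 ∨ d + f ≤ 16) →
  10368 * d * (d + 1) % (f * f) = 0 → 10368 * d * (d + 1) / (f * f) % 9 = 1 →
  10368 * d * (d + 1) / (f * f) % 8 = 3 → 10368 * d * (d + 1) / (f * f) % 7 ≠ 0

theorem numk0 : ∀ f ∈ List.range 2444, 5971968 % (f * f) = 0 → ∀ j ∈ List.range 34,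
    NP f (f + j - 17) ∧ NP f j := by
  unfold NP
  decide +kernel

theorem numk {f : ℕ} (hf : f < 2444) (h : 5971968 % (f * f) = 0) (d : ℕ) : NP f d := fun hd => by
  rcases hd with hd | hd
  · have := (numk0 f (List.mem_range.2 hf) h (d + 17 - f) (List.mem_range.2 (by omega))).1
    rw [show f + (d + 17 - f) - 17 = d by omega] at this
    exact this (Or.inl hd)
  · exact (numk0 f (List.mem_range.2 hf) h d (List.mem_range.2 (by omega))).2 (Or.inr hd)

def I91 : Finset ℕ := ⟨([117, 118, 119, 129, 130, 131, 141, 142, 143, 144, 261, 262, 263, 273, 274,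
  275, 285, 286, 287, 288, 289, 290, 291, 292, 297, 300, 301, 302, 303, 304, 309, 312, 313, 314, 315,
  316, 321, 324, 325, 326, 327, 328, 333, 336, 337, 338, 339, 340, 345, 396, 397, 398, 399, 400, 405,
  432, 433, 434, 435, 436, 441, 444, 445, 446, 447, 448, 453, 456, 457, 458, 459, 460, 465, 468, 469,
  470, 471, 472, 477, 480, 481, 482, 483, 484, 489, 540, 541, 542, 543, 544, 549] : List ℕ),
  by decide +kernel⟩

theorem I91a : ∀ p < 576, p ∈ I91 ↔ m p p = 0 ∧ p ≠ 0 := by decide +kernel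

theorem I91b : ∀ p ∈ I91, p < 576 := by decide +kernel

def cl (p : ℕ) : ℕ := (0x26664 >>> (2 * (p / 12 % 12))) % 4 % 3

def c2 (p : ℕ) : ℕ := (I91.filter fun q => m (m q p) (m q p) = 0 ∧ m q p ≠ 0).card

theorem c2a : ∑ p ∈ range 288, (if cl p = 1 then c2 p else 0) = 1728 := by decide +kernel

theorem c2b : ∑ p ∈ range 288, (if cl p = 2 then c2 p else 0) = 1728 := by decide +kernel

theorem cl4 : ∀ p < 288, cl p ≠ 0 → (fun a => a ≠ 0 ∧ m a (m a a) = 0) (m (m p p) (m p p)) := by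
  decide +kernel

theorem dE_m (p q : ℕ) : dE (m p q) = (dE p + dE q) % 2 := dE_mt _ _ _ _ _

theorem lt288 {p : ℕ} (h : p < 576) : p < 288 ↔ dE p = 0 := by rw [dE_eq]; omega

theorem m288 {p q : ℕ} (hp : p < 288) (hq : q < 288) : m p q < 288 := by
  rw [lt288 (m_lt _ _), dE_m, (lt288 (by omega)).1 hp, (lt288 (by omega)).1 hq]

theorem cl_m {p q : ℕ} (hp : p < 288) (hq : q < 288) : cl (m p q) = (cl p + cl q) % 3 := by
  have key : ∀ i < 24, ∀ j < 24, cl (12 * T i j) = (cl (12 * i) + cl (12 * j)) % 3 := by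
    decide +kernel
  have c : ∀ {a b : ℕ}, a / 12 % 12 = b / 12 % 12 → cl a = cl b := fun e => by rw [cl, cl, e]
  rw [c (a := p) (b := 12 * (p / 12)) (by omega), c (a := q) (b := 12 * (q / 12)) (by omega),
    ← key _ (by omega) _ (by omega)]
  refine c ?_
  have : m p q = mt 1 1 0 p q := rfl
  rw [this, mt_eq, (lt288 (by omega)).1 hp, (lt288 (by omega)).1 hq, pk_eq, mul_zero, tw_zero,
    Nat.mod_eq_of_lt (show p / 12 < 24 by omega)]
  omega

theorem inv288 (p : ℕ) (hp : p < 288) : ∃ q, q < 288 ∧ m p q = 0 := by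
  have key : ∀ p ∈ List.range 288, (fun a => (fun b => m p (m a (m b (m b b))) = 0 ∧
      m a (m b (m b b)) < 288) (m p a)) (m p p) := by decide +kernel
  exact ⟨_, (key p (List.mem_range.2 hp)).2, (key p (List.mem_range.2 hp)).1⟩

theorem conjT : ∀ p ∈ List.range 576, m p (m p p) = 0 → p ≠ 0 → ∃ k ∈ List.range 288,
    ∃ x ∈ [1, 2, 12, 13, 14, 24, 25, 26], m p k = m k x := by decide +kernel

end Cfsg.G23
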