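import Cfsg.Agent.G23.Fd
import Cfsg.Agent.G23.Ti0
import Cfsg.Agent.H4.Dih8
import Cfsg.Agent.H5.Integral

/-! The case that elements of order three commute with one involution only does not occur. -/

set_option autoImplicit false
set_option maxRecDepth 100000
set_option synthInstance.maxSize 100000
set_option Elab.async false

namespace Cfsg.G23

open Subgroup Finset Cfsg.H4

theorem num {n d : ℕ} {k : ℤ} (hd : 0 < d) (hk : 1 + k ^ 2 + (k + 1) ^ 2 ≤ 576)
    (e : (n : ℤ) * (d - k) ^ 2 = 10368 * d * (d + 1)) (h1 : d ∣ n * 576) (h2 : d + 1 ∣ n * 576)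
    (c9 : n % 9 = 1) (c8 : n % 8 = 3) (c7 : n % 7 = 0) : False := by
  obtain ⟨c, hc⟩ := (Nat.coprime_self_add_right.2 (Nat.coprime_one_right d)).mul_dvd_of_dvd_of_dvd h1 h2
  have k1 : -18 < k := by nlinarith
  have k2 : k < 17 := by nlinarith
  obtain ⟨f, hf⟩ : ∃ f, f = (d - k : ℤ).natAbs := ⟨_, rfl⟩
  have e1 : n * (f * f) = 10368 * d * (d + 1) := by
    zify
    rw [← e, hf, Int.natCast_natAbs, abs_mul_abs_self, sq]
  have e2 : f * f * c = 5971968 := by
    refine Nat.eq_of_mul_eq_mul_left (Nat.mul_pos hd (Nat.add_one_pos d)) ?_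
    calc d * (d + 1) * (f * f * c) = d * (d + 1) * c * (f * f) := by ring
      _ = 576 * (n * (f * f)) := by rw [← hc]; ring
      _ = _ := by rw [e1]; ring
  have f0 : 0 < f * f := Nat.pos_of_mul_pos_right (e2 ▸ by norm_num : 0 < f * f * c)
  have f1 : f < 2444 := by
    by_contra h
    have := Nat.le_of_dvd (by norm_num) (Dvd.intro _ e2)
    nlinarith
  have e3 : 10368 * d * (d + 1) / (f * f) = n := by rw [← e1, Nat.mul_div_cancel _ f0]
  have l1 : d ≤ f + 16 ∧ f ≤ d + 17 ∨ d + f ≤ 16 := by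
    clear e e1 e2 e3 hc f0 hk h1 h2
    omega
  have := numk f1 (by rw [← e2, Nat.mul_mod_right]) d l1 (by rw [← e1, Nat.mul_mod_left])
  rw [e3] at this
  exact this c9 c8 c7

variable {G : Type*} [Group G] {F : ℕ → G}

theorem burn [Finite G] (A : Subgroup G) (z : G) {k a : ℕ} (ha : Nat.card A = a + 1)
    (h : ∀ y ∈ A, y ≠ 1 → Nat.card {x // IsConj z x ∧ y * x = x * y} = k) :
    a + 1 ∣ Nat.card {x // IsConj z x} + a * k := by
  classical
  let _ : MulAction A {x // IsConj z x} :=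
    { smul := fun y x => ⟨y * x * (y : G)⁻¹, x.2.trans (isConj_iff.2 ⟨y, rfl⟩)⟩
      one_smul := fun x => Subtype.ext (show (1 : G) * x * 1⁻¹ = x by simp)
      mul_smul := fun y y' x => Subtype.ext
        (show (y : G) * y' * x * ((y : G) * y')⁻¹ = y * (y' * x * (y' : G)⁻¹) * (y : G)⁻¹ by group) }
  have := Fintype.ofFinite A
  have := fun y : A => Fintype.ofFinite (MulAction.fixedBy {x // IsConj z x} y)
  have := Fintype.ofFinite (Quotient (MulAction.orbitRel A {x // IsConj z x}))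
  have e := MulAction.sum_card_fixedBy_eq_card_orbits_mul_card_group A {x // IsConj z x}
  have c : ∀ y : A, Fintype.card (MulAction.fixedBy {x // IsConj z x} y) =
      Nat.card {x // IsConj z x ∧ y * x = x * y} := fun y => by
    rw [← Nat.card_eq_fintype_card]
    exact Nat.card_congr ((Equiv.subtypeEquivRight fun x => Subtype.ext_iff.trans
      mul_inv_eq_iff_eq_mul).trans (Equiv.subtypeSubtypeEquivSubtypeInter _ fun x => (y : G) * x = x * y))
  rw [← Finset.add_sum_erase _ _ (mem_univ 1), sum_const_nat (m := k) (fun y hy => by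
    rw [c, h y y.2 fun e => (mem_erase.1 hy).1 (Subtype.ext e)]), card_erase_of_mem (mem_univ _),
    card_univ, ← Nat.card_eq_fintype_card (α := A), ha, c] at e
  simp only [OneMemClass.coe_one, one_mul, mul_one, and_true, Nat.add_sub_cancel] at e
  exact Dvd.intro_left _ e.symm

theorem St.card_sub (H : St F) (L : Finset ℕ) (hL : ∀ p ∈ L, p < 576) {P : G → Prop}
    (h : ∀ x, P x ↔ ∃ p ∈ L, x = F p) : Nat.card {x // P x} = L.card := by
  rw [← Nat.card_eq_finsetCard]
  refine (Nat.card_eq_of_bijective (fun p : L => (⟨F p, (h _).2 ⟨p, p.2, rfl⟩⟩ : {x // P x}))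
    ⟨fun p q e => Subtype.ext (Ty.inj' H (hL _ p.2) (hL _ q.2) (congrArg Subtype.val e)),
      fun x => ?_⟩).symm
  obtain ⟨p, hp, e⟩ := (h x).1 x.2
  exact ⟨⟨p, hp⟩, Subtype.ext e.symm⟩

def St.C (H : St F) : Subgroup G := H.sub (· < 288) (by norm_num) (fun _ hp _ hq => m288 hp hq)
  inv288

theorem ti_false [Finite G] {r : G} (R : RR F r) (H : St F) (h7 : 7 ∣ Nat.card G)
    (TI0 : ∀ x ∈ T9, x ≠ 0 → ∀ w, w * w = 1 → w ≠ 1 → w * F x = F x * w → w = F 144) : False := by
  classical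
  have := Fintype.ofFinite G
  set z := F 144 with hz
  have z2 : z * z = 1 := Ty.zz H
  have z1 : z ≠ 1 := Ty.ne1 H (by norm_num)
  have cj2 : ∀ {x g y : G}, Cj x g y → (x * x = 1 ↔ y * y = 1) ∧ (x = 1 ↔ y = 1) :=
      fun {x g y} h => by
    have a := (h.mul h).eq
    have b := h.eq
    constructor
    · rw [a, ← inv_inv g, inv_inv g⁻¹, conj_eq_one_iff]
    · rw [b, ← inv_inv g, inv_inv g⁻¹, conj_eq_one_iff]
  have TI : ∀ y, y * z = z * y → y ^ 3 = 1 → y ≠ 1 → ∀ w, w * w = 1 → w ≠ 1 → w * y = y * w →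
      w = z := fun y c y3 y1 w w2 w1 wy => by
    obtain ⟨p, hp, rfl⟩ := Ty.cov H c
    obtain ⟨k, -, x, hx, e⟩ := conjT p (List.mem_range.2 hp) ((H.p3 p).1 y3)
      fun e => y1 (e ▸ Ty.one H)
    have a := Cj.of w (F k)
    have b := TI0 x (List.mem_cons_of_mem _ hx) (fun e' => y1 ((cj2 (H.cj e)).2.2 (e' ▸ Ty.one H))) _ ((cj2 a).1.1 w2)
      (fun e => w1 ((cj2 a).2.2 e)) (a.comm (H.cj e) wy)
    rw [b] at a
    exact a.inv.uniq (show Cj z (F k) z from (Ty.cz H k).symm).inv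
  have ic : ∀ x, IsConj z x → x * x = 1 ∧ x ≠ 1 := fun x h => by
    obtain ⟨g, hg⟩ := isConj_iff.1 h.symm
    have a : Cj z g x := by rw [← hg]; unfold Cj; group
    exact ⟨(cj2 a).1.1 z2, fun e => z1 ((cj2 a).2.2 e)⟩
  have ci : ∀ p, F p * F p = 1 → F p ≠ 1 → IsConj z (F p) := fun p a b => by
    obtain ⟨k, -, e⟩ := R.fus H (Y := ⊤) trivial (fun _ => trivial) (Ty.cz H p) a b
    exact isConj_iff.2 ⟨k, by rw [hz, e.eq]; group⟩
  have mI : ∀ p < 576, p ∈ I91 ↔ IsConj z (F p) := fun p hp => by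
    rw [I91a p hp]
    exact ⟨fun h => ci p (H.m1.2 h.1) (Ty.ne1 H (by omega)),
      fun h => ⟨H.m1.1 (ic _ h).1, fun e => (ic _ h).2 (e ▸ Ty.one H)⟩⟩
  have cD : Nat.card (centralizer ({z} : Set G)) = 576 := Ty.card H
  obtain ⟨n, hn⟩ : ∃ n, n = Nat.card {x // IsConj z x} := ⟨_, rfl⟩
  have hG : Nat.card G = n * 576 := by rw [← cD, hn, card_isConj_mul_card_centralizer]
  have c7 : n % 7 = 0 := Nat.mod_eq_zero_of_dvd
    ((by norm_num : Nat.Coprime 7 576).dvd_of_dvd_mul_right (hG ▸ h7))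
  have c9 : n % 9 = 1 := by
    have := burn H.T z (k := 1) (a := 8) (H.card_sub T9.toFinset (by decide)
      fun x => by simp [St.T, St.sub, ← SetLike.mem_coe]) (by
        rintro _ ⟨p, hp, rfl⟩ p1
        refine H.card_sub {144} (by decide) fun x => ?_
        simp only [mem_singleton, exists_eq_left]
        refine ⟨fun h => TI0 p hp (fun e => p1 (e ▸ Ty.one H)) x (ic x h.1).1 (ic x h.1).2 h.2.symm, ?_⟩
        rintro rfl
        exact ⟨IsConj.refl _, Ty.cz H p⟩)
    rw [← hn] at this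
    clear hn hG cD h7
    omega
  have c8 : n % 8 = 3 := by
    have c91 : Nat.card {x // IsConj z x ∧ z * x = x * z} = 91 :=
      H.card_sub I91 I91b fun x => ⟨fun h => by
        obtain ⟨p, hp, rfl⟩ := Ty.cov H h.2.symm
        exact ⟨p, (mI p hp).2 h.1, rfl⟩, by
        rintro ⟨p, hp, rfl⟩
        exact ⟨(mI p (I91b p hp)).1 hp, (Ty.cz H p).symm⟩⟩
    have k8 : ∀ p ∈ [0, 144, 117, 261, 130, 274, 143, 287], m p p = 0 := by decide +kernel
    have := burn (H.sub (· ∈ [0, 144, 117, 261, 130, 274, 143, 287]) (by decide) (by decide +kernel)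
      (by decide +kernel)) z (k := 91) (a := 7) (H.card_sub {0, 144, 117, 261, 130, 274, 143, 287}
        (by decide) fun x => by simp [St.sub, ← SetLike.mem_coe]) (by
        rintro _ ⟨p, hp, rfl⟩ p1
        obtain ⟨g, hg⟩ := isConj_iff.1 (ci p (H.m1.2 (k8 p hp)) p1)
        rw [← c91, ← hg]
        refine (Nat.card_congr (Equiv.subtypeEquiv (MulAut.conj g).toEquiv fun x => and_congr
          ⟨fun h => h.trans (isConj_iff.2 ⟨g, rfl⟩), fun h => h.trans (isConj_iff.2 ⟨g, rfl⟩).symm⟩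
          ?_)).symm
        show _ ↔ MulAut.conj g z * MulAut.conj g x = MulAut.conj g x * MulAut.conj g z
        rw [← map_mul, ← map_mul, EmbeddingLike.apply_eq_iff_eq])
    rw [← hn] at this
    clear hn hG cD h7 c91 k8
    omega
  -- the linear character
  obtain ⟨ω, hω⟩ : ∃ ω : ℂ, IsPrimitiveRoot ω 3 := ⟨_, Complex.isPrimitiveRoot_exp 3 (by norm_num)⟩
  have ω1 : ω ≠ 1 := hω.ne_one (by norm_num)
  have ω2 : 1 + ω + ω ^ 2 = 0 := by
    simpa [sum_range_succ] using hω.geom_sum_eq_zero (by norm_num)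
  have mC : ∀ {p}, p < 288 → F p ∈ H.C := fun hp => ⟨_, hp, rfl⟩
  have ch : ∀ (x : H.C) {p}, p < 288 → x = F p → x.2.choose = p := fun x p hp e =>
    Ty.inj' H (x.2.choose_spec.1.trans (by norm_num)) (by omega) (x.2.choose_spec.2.symm.trans e)
  let lam : H.C →* ℂ :=
    { toFun := fun x => ω ^ cl x.2.choose
      map_one' := by rw [ch 1 (p := 0) (by norm_num) (Ty.one H).symm]; rfl
      map_mul' := by
        rintro ⟨_, p, hp, rfl⟩ ⟨_, q, hq, rfl⟩
        rw [ch _ (m288 hp hq) (H.mul p q), ch _ hp rfl, ch _ hq rfl, cl_m hp hq, ← pow_add,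
          ← pow_eq_pow_mod _ hω.pow_eq_one] }
  have hl : ∀ (x : H.C) {p}, p < 288 → x = F p → lam x = ω ^ cl p := fun x p hp e => by
    show ω ^ cl x.2.choose = _
    rw [ch x hp e]
  have hi : (F 288)⁻¹ = F 288 := inv_eq_of_mul_eq_one_right (H.m1.2 (by decide +kernel))
  have cA : ∀ g, ∀ p < 288, cl p ≠ 0 → g * F p ^ 4 * g⁻¹ * z = z * (g * F p ^ 4 * g⁻¹) →
      g * z = z * g := fun g p hp hc e => by
    have a : F p ^ 4 = F (m (m p p) (m p p)) := by
      rw [show 4 = 2 * 2 from rfl, pow_mul, sq, sq, H.mul, H.mul]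
    have b : Cj z g⁻¹ (g * z * g⁻¹) := by unfold Cj; group
    refine mul_inv_eq_iff_eq_mul.1 (TI _ e ?_ ?_ _ ((cj2 b).1.1 z2) (fun e => z1 ((cj2 b).2.2 e)) ?_)
    · rw [conj_pow, a, (H.p3 _).2 (cl4 p hp hc).2]; simp
    · rw [Ne, conj_eq_one_iff, a]
      exact Ty.ne1 H (by rw [Nat.mod_eq_of_lt (m_lt _ _)]; exact (cl4 p hp hc).1)
    · calc _ = g * (z * F p ^ 4) * g⁻¹ := by group
        _ = _ := by rw [a, hz, ← Ty.cz H]; group
  obtain ⟨χ, ψ, i1, i2, n12, n1, n2, he⟩ := exists_triple (C := H.C) (b := F 288)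
    (A := {x | ∃ p < 288, cl p ≠ 0 ∧ x = F p})
    (by
      rintro ⟨p, hp, e⟩
      have := Ty.inj' H (by norm_num) (hp.trans (by norm_num)) e
      omega)
    (by
      rintro _ ⟨p, hp, rfl⟩
      rw [hi, H.mul, H.mul]
      refine mC ?_
      rw [lt288 (m_lt _ _), dE_m, dE_m, (lt288 (by omega)).1 hp]; rfl)
    (by
      rintro g _ ⟨p, hp, hc, rfl⟩ ⟨q, -, -, e⟩
      obtain ⟨s, hs, rfl⟩ := Ty.cov H (cA g p hp hc (by
        rw [← conj_pow, e]; exact (show Commute (F q) z from Ty.cz H q).pow_left 4))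
      by_cases h : s < 288
      · exact Or.inl (mC h)
      · right
        rw [hi, H.mul]
        refine mC ?_
        rw [lt288 hs] at h
        have := dE_lt s
        rw [lt288 (m_lt _ _), dE_m, show dE 288 = 1 from rfl]; omega)
    lam
    (by
      rintro ⟨_, p, hp, rfl⟩ h
      exact ⟨p, hp, fun e => h (by rw [hl _ hp rfl, e, pow_zero]), rfl⟩)
    ⟨⟨F 12, mC (by norm_num)⟩, by rw [hl _ (p := 12) (by norm_num) rfl]; simpa [cl] using ω1⟩
    ⟨⟨F 12, mC (by norm_num)⟩, by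
      rw [hl _ (p := 24) (by norm_num) (by
        show F 288 * F 12 * (F 288)⁻¹ = _
        rw [hi, H.mul, H.mul]; congr 1), hl _ (p := 12) (by norm_num) rfl]
      intro e
      have := hω.pow_inj (by decide) (by decide) e
      exact absurd this (by decide)⟩
  have e1 : χ 1 = ψ 1 + 1 := by
    have := congrFun he 1
    simp only [indFun_apply_one, Pi.sub_apply, map_one, sub_self, mul_zero] at this
    linear_combination -this
  have e2 : χ z = ψ z + 1 := by
    have h1 := congrFun he z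
    rw [indFun, sum_eq_zero (fun x _ => by
      by_cases hx : x⁻¹ * z * x ∈ H.C
      · obtain ⟨p, hp, e⟩ := id hx
        have : cl p = 0 := by
          by_contra hc
          refine (cl4 p hp hc).1 ?_
          rw [(H.m1 (p := p) (q := p)).1 (e ▸ (cj2 (Cj.of z x)).1.1 z2)]; decide +kernel
        rw [extendByZero_of_mem _ hx, Pi.sub_apply, hl _ hp e, this, pow_zero, sub_self]
      · exact extendByZero_of_not_mem _ hx)] at h1
    simp only [Pi.sub_apply] at h1
    linear_combination -h1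
  have := Fintype.ofFinite H.C
  have e3 := sum_sum_isConj_indFun ((fun x => lam x) - fun _ => 1) z z
  simp only [Pi.sub_apply (fun x => lam x)] at e3
  have hcount : ∀ p < 288, cl p ≠ 0 →
      (univ.filter fun x : G => IsConj z x ∧ IsConj z (x⁻¹ * F p)).card = c2 p := by
    intro p hp hc
    rw [← natCard_eq_card_filter]
    refine H.card_sub _ (fun q hq => I91b q (mem_filter.1 hq).1) fun x => ⟨fun h => ?_, ?_⟩
    · have xi : x⁻¹ = x := inv_eq_of_mul_eq_one_right (ic x h.1).1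
      rw [xi] at h
      have a : x * F p * x⁻¹ = (F p)⁻¹ := by
        rw [xi, eq_inv_iff_mul_eq_one, mul_assoc, (ic _ h.2).1]
      obtain ⟨q, hq, rfl⟩ := Ty.cov H (cA x p hp hc (by
        rw [← conj_pow, a]; exact ((show Commute (F p) z from Ty.cz H p).inv_left).pow_left 4))
      rw [H.mul] at h
      exact ⟨q, mem_filter.2 ⟨(mI q hq).2 h.1, (I91a _ (m_lt _ _)).1 ((mI _ (m_lt _ _)).2 h.2)⟩, rfl⟩
    · rintro ⟨q, hq, rfl⟩
      obtain ⟨h1, h2⟩ := mem_filter.1 hq
      have a := (mI q (I91b q h1)).1 h1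
      rw [inv_eq_of_mul_eq_one_right (ic _ a).1, H.mul]
      exact ⟨a, (mI _ (m_lt _ _)).1 ((I91a _ (m_lt _ _)).2 h2)⟩
  have es : ∑ h : H.C, (lam h - 1) *
      ((univ.filter fun x : G => IsConj z x ∧ IsConj z (x⁻¹ * h)).card : ℂ) = -5184 := by
    rw [← sum_bij (s := range 288) (t := univ) (f := fun p => (ω - 1) *
      ((if cl p = 1 then c2 p else 0 : ℕ) : ℂ) + (ω ^ 2 - 1) * (if cl p = 2 then c2 p else 0 : ℕ))
      (fun p hp => ⟨F p, mC (mem_range.1 hp)⟩) (fun _ _ => mem_univ _)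
      (fun p hp q hq e => Ty.inj' H ((mem_range.1 hp).trans (by norm_num))
        ((mem_range.1 hq).trans (by norm_num)) (congrArg Subtype.val e))
      (by
        rintro ⟨_, p, hp, rfl⟩ -
        exact ⟨p, mem_range.2 hp, rfl⟩)
      (fun p hp => by
        rw [hl _ (mem_range.1 hp) rfl]
        have h1 := hcount p (mem_range.1 hp)
        have : cl p < 3 := Nat.mod_lt _ (by norm_num)
        generalize cl p = j at *
        interval_cases j
        · simp
        · rw [h1 (by norm_num)]; simp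
        · rw [h1 (by norm_num)]; simp),
      sum_add_distrib, ← mul_sum, ← mul_sum, ← Nat.cast_sum, ← Nat.cast_sum, c2a, c2b]
    push_cast
    linear_combination 1728 * ω2
  have cC : Nat.card H.C = 288 := by
    rw [← card_range 288]
    exact H.card_sub (range 288) (fun p hp => (mem_range.1 hp).trans (by norm_num))
      fun x => by simp [St.C, St.sub, ← SetLike.mem_coe]
  have iC : H.C.index = 2 * n := by
    have := index_mul_card H.C
    rw [cC, hG] at this
    exact Nat.eq_of_mul_eq_mul_right (by norm_num : 0 < 288) (by rw [this]; ring)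
  rw [es, he, iC] at e3
  have e4 := i1.sum_sum_isConj_mul z z 1
  have e5 := i2.sum_sum_isConj_mul z z 1
  have e6 := (isIrrCharacter_one (G := G)).sum_sum_isConj_mul z z 1
  simp only [mul_one] at e4 e5 e6
  simp only [Pi.sub_apply, sum_sub_distrib] at e3
  rw [e4, e5, e6, ← hn, e1, e2] at e3
  obtain ⟨d, hd, e7⟩ := i2.exists_apply_one
  obtain ⟨k, e8⟩ := i2.isCharacter.exists_int_of_sq_eq_one (t := z) (by rw [sq, z2])
  have e9 : 1 + (k : ℝ) ^ 2 + (k + 1) ^ 2 ≤ 576 := by
    have h1 := sum_irr_norm_sq z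
    rw [cD] at h1
    have h2 := sum_le_sum_of_subset_of_nonneg (f := fun χ : IrrCharacter G => ‖χ.1 z‖ ^ 2)
      (subset_univ {⟨_, isIrrCharacter_one⟩, ⟨ψ, i2⟩, ⟨χ, i1⟩}) fun _ _ _ => sq_nonneg _
    rw [h1, sum_insert (by simp [n1.symm, n2.symm]), sum_pair (by simp [n12.symm])] at h2
    simp only [e2, e8, norm_one] at h2
    rw [show (k : ℂ) + 1 = ((k + 1 : ℤ) : ℂ) by simp, Complex.norm_intCast, Complex.norm_intCast,
      sq_abs, sq_abs] at h2
    push_cast at h2
    linarith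
  have hm : (n : ℂ) ≠ 0 := Nat.cast_ne_zero.mpr (by rintro rfl; exact absurd c9 (by norm_num))
  have hd' : (d : ℂ) ≠ 0 := Nat.cast_ne_zero.mpr hd.ne'
  have hd'' : (d : ℂ) + 1 ≠ 0 := by exact_mod_cast Nat.succ_ne_zero d
  have d1 := H5.degree_dvd_card i2 e7
  have d2 := H5.degree_dvd_card i1 (n := d + 1) (by rw [e1, e7]; simp)
  rw [e7, e8] at e3
  have e11 : (n : ℂ) * (d - k) ^ 2 = 10368 * d * (d + 1) := by
    apply mul_left_cancel₀ hm
    field_simp at e3
    push_cast at e3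
    linear_combination -e3
  exact num hd (by exact_mod_cast e9) (by exact_mod_cast e11) (hG ▸ d1) (hG ▸ d2) c9 c8 c7

end Cfsg.G23
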